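import Cfsg.Agent.RV.Hom
import Mathlib.LinearAlgebra.Matrix.CharP

/-! The pairs `(W, R)` with two lines. -/

set_option autoImplicit false

namespace CF.RV

open Subgroup Matrix

section tuples
variable {K : Type} [CommRing K]

/-- matrices as tuples -/
abbrev T4 (K : Type) : Type := K × K × K × K

/-- the entries -/
def tp (A : GL (Fin 2) K) : T4 K := (A 0 0, A 0 1, A 1 0, A 1 1)

/-- product of tuples -/
def tm (s t : T4 K) : T4 K :=
  (s.1 * t.1 + s.2.1 * t.2.2.1, s.1 * t.2.1 + s.2.1 * t.2.2.2, s.2.2.1 * t.1 + s.2.2.2 * t.2.2.1,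
    s.2.2.1 * t.2.1 + s.2.2.2 * t.2.2.2)

/-- determinant of a tuple -/
def td (t : T4 K) : K := t.1 * t.2.2.2 - t.2.1 * t.2.2.1

/-- action of a tuple -/
def ta (t : T4 K) (v : K × K) : K × K := (t.1 * v.1 + t.2.1 * v.2, t.2.2.1 * v.1 + t.2.2.2 * v.2)

/-- value of a word -/
def ev (M N : T4 K) : List Bool → T4 K
  | [] => (1, 0, 0, 1)
  | b :: w => tm (if b then N else M) (ev M N w)

/-- a scalar times a nontrivial unipotent element -/
def Bad (t : T4 K) : Prop := (t.1 + t.2.2.2) ^ 2 = 4 * td t ∧ ¬ (t.2.1 = 0 ∧ t.2.2.1 = 0 ∧ t.1 = t.2.2.2)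

instance instDecidableBad [DecidableEq K] (t : T4 K) : Decidable (Bad t) := inferInstanceAs (Decidable (_ ∧ _))

theorem tp_mul (A B : GL (Fin 2) K) : tp (A * B) = tm (tp A) (tp B) := by
  simp [tp, tm, mul_apply, Fin.sum_univ_two]

theorem tp_one : tp (1 : GL (Fin 2) K) = (1, 0, 0, 1) := by simp [tp]

theorem tp_inj : Function.Injective (tp : GL (Fin 2) K → T4 K) := fun A B e => by
  simp only [tp, Prod.mk.injEq] at e
  ext i j
  fin_cases i <;> fin_cases j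
  exacts [e.1, e.2.1, e.2.2.1, e.2.2.2]

theorem dt_tp (A : GL (Fin 2) K) : dt A = td (tp A) := rfl

theorem ap_tp (A : GL (Fin 2) K) (v : K × K) : ap A v = ta (tp A) v := rfl

theorem dt_pow (A : GL (Fin 2) K) (n : ℕ) : dt (A ^ n) = dt A ^ n := by
  induction n with
  | zero => simp [dt_one]
  | succ n ih => rw [pow_succ, dt_mul, ih, pow_succ]

theorem ap_pow {A : GL (Fin 2) K} {v : K × K} {α : K} (e : ap A v = α • v) (n : ℕ) : ap (A ^ n) v = α ^ n • v := by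
  induction n with
  | zero => simp [ap_one]
  | succ n ih => rw [pow_succ, ap_mul, e, ap_smul, ih, smul_smul, pow_succ']

theorem eig_conj {A B : GL (Fin 2) K} {v : K × K} {α : K} (e : ap A (ap B v) = α • ap B v) :
    ap (B⁻¹ * A * B) v = α • v := by rw [ap_mul, ap_mul, e, ap_smul, ap_inv]

/-- the tuple comes from an element of `W` -/
def Mm (W : Subgroup (GL (Fin 2) K)) (t : T4 K) : Prop := ∃ A ∈ W, tp A = t

variable {W : Subgroup (GL (Fin 2) K)} {s t M N : T4 K} {A : GL (Fin 2) K}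

theorem Mm.mul (h : Mm W s) (k : Mm W t) : Mm W (tm s t) :=
  let ⟨A, a, e⟩ := h; let ⟨B, b, f⟩ := k; ⟨A * B, mul_mem a b, by rw [tp_mul, e, f]⟩

theorem Mm.ev (h : Mm W M) (k : Mm W N) (w : List Bool) : Mm W (ev M N w) := by
  induction w with
  | nil => exact ⟨1, one_mem _, tp_one⟩
  | cons b w ih => cases b; exacts [h.mul ih, k.mul ih]

theorem mm_tp : Mm W (tp A) ↔ A ∈ W := ⟨fun ⟨_, h, e⟩ => tp_inj e ▸ h, fun h => ⟨A, h, rfl⟩⟩

end tuples

variable {p : ℕ} [Fact p.Prime] {W : Subgroup (GL (Fin 2) (ZMod p))} {R : Set (ZMod p × ZMod p)}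
  {A B : GL (Fin 2) (ZMod p)} {u v : ZMod p × ZMod p}

theorem two_ne (hp : p ≠ 2) : (2 : ZMod p) ≠ 0 := fun e =>
  hp ((Nat.prime_dvd_prime_iff_eq Fact.out Nat.prime_two).1 ((ZMod.natCast_eq_zero_iff 2 p).1 e))

theorem Dat.not_bad (hp : p ≠ 2) (h : Dat W R) (hA : A ∈ W) (e : (A 0 0 + A 1 1) ^ 2 = 4 * dt A) :
    A 0 1 = 0 ∧ A 1 0 = 0 ∧ A 0 0 = A 1 1 := by
  have pr : p.Prime := Fact.out
  obtain ⟨l, hl⟩ : ∃ l, A 0 0 + A 1 1 = 2 * l := ⟨_, (mul_div_cancel₀ _ (two_ne hp)).symm⟩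
  have d : dt A = l ^ 2 := mul_left_cancel₀ (mul_ne_zero (two_ne hp) (two_ne hp)) (by rw [hl] at e; linear_combination -e)
  have l0 : l ≠ 0 := fun o => dt_ne A (by rw [d, o]; ring)
  have n2 : ((A : Matrix (Fin 2) (Fin 2) (ZMod p)) - l • 1) ^ 2 = 0 := by
    rw [dt] at d
    ext i j
    fin_cases i <;> fin_cases j <;> simp [sq, mul_apply, Fin.sum_univ_two]
    · linear_combination (A 0 0) * hl - d
    · linear_combination (A 0 1) * hl
    · linear_combination (A 1 0) * hl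
    · linear_combination (A 1 1) * hl - d
  have e1 : (A : Matrix (Fin 2) (Fin 2) (ZMod p)) ^ p = l • 1 := by
    rw [← sub_add_cancel (A : Matrix (Fin 2) (Fin 2) (ZMod p)) (l • 1),
      add_pow_char_of_commute p ((Commute.one_right _).smul_right l), pow_eq_zero_of_le pr.two_le n2, zero_add, smul_pow,
      one_pow, ZMod.pow_card]
  have e2 := h.pp _ (pow_mem hA (p - 1)) (Units.ext (by
    rw [← pow_mul, mul_comm, pow_mul, Units.val_pow_eq_pow_val, Units.val_pow_eq_pow_val, e1, smul_pow, one_pow,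
      ZMod.pow_card_sub_one_eq_one l0, one_smul, Units.val_one]))
  rw [← pow_sub_one_mul pr.ne_zero, ← Units.val_pow_eq_pow_val, e2, Units.val_one, one_mul] at e1
  simp [e1]

theorem Dat.nb (hp : p ≠ 2) (h : Dat W R) {t : T4 (ZMod p)} (m : Mm W t) : ¬ Bad t := by
  obtain ⟨A, hA, rfl⟩ := m
  exact fun b => b.2 (h.not_bad hp hA b.1)

/-- the matrix with given entries -/
def gl (a b c d : ZMod p) (h : a * d - b * c ≠ 0) : GL (Fin 2) (ZMod p) :=
  GeneralLinearGroup.mkOfDetNeZero !![a, b; c, d] (by rwa [det_fin_two_of])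

theorem ap_gl {a b c d : ZMod p} (h : a * d - b * c ≠ 0) (v : ZMod p × ZMod p) :
    ap (gl a b c d h) v = (a * v.1 + b * v.2, c * v.1 + d * v.2) := rfl

theorem cW_mul (B C : GL (Fin 2) (ZMod p)) : cW C (cW B W) = cW (B * C) W := by
  ext A; simp [mem_cW, mul_assoc]

theorem cR_mul (B C : GL (Fin 2) (ZMod p)) : cR C (cR B R) = cR (B * C) R := by
  ext v; simp [mem_cR, ap_mul]

theorem conj_cW (hA : A ∈ W) (B : GL (Fin 2) (ZMod p)) : B⁻¹ * A * B ∈ cW B W := by simpa [mem_cW, mul_assoc] using hA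

theorem exists_basis (n : u.1 * v.2 ≠ u.2 * v.1) : ∃ B : GL (Fin 2) (ZMod p), ap B (1, 0) = u ∧ ap B (0, 1) = v :=
  ⟨gl u.1 v.1 u.2 v.2 (by rw [mul_comm v.1]; exact sub_ne_zero.2 n), by simp [ap_gl], by simp [ap_gl]⟩

theorem Dat.mono (h : Dat W (axes p)) (hA : A ∈ W) : A 0 1 = 0 ∧ A 1 0 = 0 ∨ A 0 0 = 0 ∧ A 1 1 = 0 := by
  have a := (h.inv A hA (1, 0) ⟨by simp, .inr rfl⟩).2
  have b := (h.inv A hA (0, 1) ⟨by simp, .inl rfl⟩).2
  have d := dt_ne A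
  simp only [ap, mul_one, mul_zero, add_zero, zero_add] at a b
  rw [dt] at d
  rcases a with a | a <;> rcases b with b | b <;> simp_all

theorem Dat.dg (h : Dat W (axes p)) {a κ : ZMod p} (ha : a ≠ 0) (hκ : κ ≠ 0) : Mm W (a, 0, 0, a * κ ^ 3) := by
  obtain ⟨A, hA, e, d⟩ := h.tau (1, 0) ⟨by simp, .inr rfl⟩ (a * κ ^ 2) (by positivity)
  obtain ⟨B, hB, e', d'⟩ := h.tau (0, 1) ⟨by simp, .inl rfl⟩ (a * κ) (by positivity)
  simp only [ap, mul_one, mul_zero, add_zero, zero_add, Prod.smul_mk, smul_eq_mul, Prod.mk.injEq] at e e'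
  have a1 : A 0 1 = 0 := ((h.mono hA).resolve_right fun o => by simp [o.1, ha, hκ, eq_comm] at e).1
  have b1 : B 1 0 = 0 := ((h.mono hB).resolve_right fun o => by simp [o.2, ha, hκ, eq_comm] at e').2
  rw [dt, e.1, a1, zero_mul, sub_zero, inv_mul_eq_iff_eq_mul₀ (by positivity)] at d
  rw [dt, e'.2, b1, mul_zero, sub_zero, mul_inv_eq_iff_eq_mul₀ (by positivity)] at d'
  refine ⟨A * B, mul_mem hA hB, ?_⟩
  rw [tp_mul]
  simp only [tp, tm, e.1, e.2, e'.1, e'.2, a1, b1, d, d', Prod.mk.injEq]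
  refine ⟨by field_simp; ring, by ring, by ring, by field_simp; ring⟩

theorem cube_gen {x y : ZMod p} (hx : x ≠ 0) (n : ¬ ∃ κ, x = κ ^ 3) (hy : y ≠ 0) :
    ∃ (i : ℕ) (κ : ZMod p), κ ≠ 0 ∧ y = x ^ i * κ ^ 3 := by
  obtain ⟨g, hg⟩ := IsCyclic.exists_monoid_generator (α := (ZMod p)ˣ)
  obtain ⟨a, ha⟩ := hg (Units.mk0 x hx)
  obtain ⟨b, hb⟩ := hg (Units.mk0 y hy)
  obtain rfl : (g : ZMod p) ^ a = x := by simpa using congrArg Units.val ha
  obtain rfl : (g : ZMod p) ^ b = y := by simpa using congrArg Units.val hb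
  obtain ⟨c, hc⟩ : ∃ c, a * a = 3 * c + 1 := by
    obtain ⟨k, rfl | rfl | rfl⟩ : ∃ k, a = 3 * k ∨ a = 3 * k + 1 ∨ a = 3 * k + 2 := ⟨a / 3, by omega⟩
    exacts [(n ⟨g ^ k, by ring⟩).elim, ⟨3 * k * k + 2 * k, by ring⟩, ⟨3 * k * k + 4 * k + 1, by ring⟩]
  refine ⟨a * b, ((g : ZMod p) ^ (c * b))⁻¹, inv_ne_zero (pow_ne_zero _ g.ne_zero), ?_⟩
  rw [← pow_mul, ← mul_assoc, hc]
  have := g.ne_zero
  field_simp
  ring

theorem Dat.dg_iff (h : Dat W (axes p)) {a b : ZMod p} (ha : a ≠ 0) (hb : b ≠ 0) :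
    Mm W (a, 0, 0, b) ↔ (∃ x y, Mm W (x, 0, 0, y) ∧ ¬ ∃ κ, y = x * κ ^ 3) ∨ ∃ κ, b = a * κ ^ 3 := by
  refine ⟨fun m => or_iff_not_imp_right.2 fun n => ⟨a, b, m, n⟩, ?_⟩
  rintro (⟨x, y, m, n⟩ | ⟨κ, rfl⟩)
  · have d : x ≠ 0 ∧ y ≠ 0 := by
      obtain ⟨A, -, e⟩ := m
      simpa [dt_tp, e, td] using dt_ne A
    have pw : ∀ i : ℕ, Mm W (x ^ i, 0, 0, y ^ i) := fun i => by
      induction i with
      | zero => exact ⟨1, one_mem _, by simp [tp_one]⟩
      | succ i ih => simpa [tm, pow_succ] using ih.mul m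
    obtain ⟨i, κ, k0, e⟩ := cube_gen (div_ne_zero d.2 d.1) (fun ⟨κ, e⟩ => n ⟨κ, by rw [← e, mul_div_cancel₀ _ d.1]⟩)
      (div_ne_zero hb ha)
    convert (pw i).mul (h.dg (div_ne_zero ha (pow_ne_zero i d.1)) k0) using 1
    have := d.1
    rw [div_eq_iff ha] at e
    simp only [tm, e, div_pow, Prod.mk.injEq]
    refine ⟨by field_simp; ring, by ring, by ring, by field_simp; ring⟩
  · exact h.dg ha fun o => hb (by simp [o])

theorem Dat.wst (h : Dat W (axes p)) (c : ∀ x y, Mm W (0, x, y, 0) → ∃ x κ, Mm W (0, x, x * κ ^ 3, 0)) :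
    ∃ full sw, ∀ A, A ∈ W ↔ Wst full sw A := by
  refine ⟨∃ x y, Mm W (x, 0, 0, y) ∧ ¬ ∃ κ, y = x * κ ^ 3, ∃ x y, Mm W (0, x, y, 0), fun A => ?_⟩
  have d := dt_ne A
  have dg : A 0 1 = 0 → A 1 0 = 0 → (A ∈ W ↔
      (∃ x y, Mm W (x, 0, 0, y) ∧ ¬ ∃ κ, y = x * κ ^ 3) ∨ ∃ κ, A 1 1 = A 0 0 * κ ^ 3) := fun a b => by
    rw [dt, a, zero_mul, sub_zero] at d
    rw [← mm_tp, tp, a, b, h.dg_iff (left_ne_zero_of_mul d) (right_ne_zero_of_mul d)]
  have ad : A 0 0 = 0 → A 1 1 = 0 → (∃ x y, Mm W (0, x, y, 0)) → (A ∈ W ↔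
      (∃ x y, Mm W (x, 0, 0, y) ∧ ¬ ∃ κ, y = x * κ ^ 3) ∨ ∃ κ, A 1 0 = A 0 1 * κ ^ 3) := fun a b ⟨x, y, m⟩ => by
    obtain ⟨x, κ, m⟩ := c x y m
    rw [dt, a, zero_mul, zero_sub, neg_ne_zero] at d
    have k : x ≠ 0 ∧ κ ≠ 0 := by
      obtain ⟨A, -, e⟩ := m
      simpa [dt_tp, e, td] using dt_ne A
    have k1 := k.1
    have k2 := k.2
    have d1 := left_ne_zero_of_mul d
    have d2 := right_ne_zero_of_mul d
    have e : Mm W (tp A) ↔ Mm W (x * A 1 0, 0, 0, x * κ ^ 3 * A 0 1) := by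
      refine ⟨fun o => by simpa [tm, tp, a, b] using m.mul o, fun o => ?_⟩
      convert (h.dg (inv_ne_zero (mul_ne_zero (pow_ne_zero 2 k1) (pow_ne_zero 3 k2))) one_ne_zero).mul (m.mul o) using 1
      simp only [tm, tp, a, b, Prod.mk.injEq]
      refine ⟨by ring, by field_simp; ring, by field_simp; ring, by ring⟩
    rw [← mm_tp, e, h.dg_iff (by positivity) (by positivity)]
    refine or_congr_right ⟨fun ⟨l, o⟩ => ⟨κ / l, ?_⟩, fun ⟨l, o⟩ => ⟨κ / l, ?_⟩⟩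
    · have l0 : l ≠ 0 := by rintro rfl; simp [k1, k2, d1] at o
      field_simp
      exact mul_left_cancel₀ k1 (by linear_combination -o)
    · have l0 : l ≠ 0 := by rintro rfl; simp [d2] at o
      rw [o]; field_simp
  refine ⟨fun hA => (h.mono hA).imp (fun o => ⟨o.1, o.2, (dg o.1 o.2).1 hA⟩) fun o => ?_, ?_⟩
  · have s : ∃ x y, Mm W (0, x, y, 0) := ⟨_, _, A, hA, by rw [tp, o.1, o.2]⟩
    exact ⟨s, o.1, o.2, (ad o.1 o.2 s).1 hA⟩
  · rintro (⟨a, b, o⟩ | ⟨s, a, b, o⟩)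
    exacts [(dg a b).2 o, (ad a b s).2 o]

theorem Dat.two (_hp : p ≠ 2) (h : Dat W R) (n3 : ¬ Three R) (hu : u ∈ R) (hv : v ∈ R) (n : u.1 * v.2 ≠ u.2 * v.1) :
    ∃ B full sw, cR B R = axes p ∧ ∀ A, A ∈ cW B W ↔ Wst full sw A := by
  obtain ⟨B, rfl, rfl⟩ := exists_basis n
  have h' := h.conj B
  have e : cR B R = axes p := by
    refine Set.ext fun w => ⟨fun hw => ⟨h'.ne w hw, by_contra fun o => n3 ?_⟩, ?_⟩
    · rw [not_or] at o
      exact cR_inv (R := R) B ▸ Three.conj ⟨(1, 0), hu, (0, 1), hv, w, hw, by simp, by simpa using o.2,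
        by simpa [eq_comm] using o.1⟩ B⁻¹
    · obtain ⟨a, b⟩ := w
      rintro ⟨o, rfl | rfl⟩
      · simpa using h'.sm (0, 1) hv b (by simpa using o)
      · simpa using h'.sm (1, 0) hu a (by simpa using o)
  rw [e] at h'
  by_cases s : ∃ x y, Mm (cW B W) (0, x, y, 0)
  · obtain ⟨x, y, A, hA, m⟩ := s
    have k : x ≠ 0 ∧ y ≠ 0 := by simpa [dt_tp, m, td] using dt_ne A
    have k1 := k.1
    have k2 := k.2
    let C : GL (Fin 2) (ZMod p) := gl 1 0 0 (x / y) (by simp [k1, k2])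
    have e' : cR C (axes p) = axes p := Set.ext fun w => by simp [mem_cR, axes, C, ap_gl, k1, k2, Prod.ext_iff]
    obtain ⟨full, sw, q⟩ := (e' ▸ h'.conj C).wst fun _ _ _ => ⟨x * (x / y), y / x, _, conj_cW hA C, by
      have q : C * (C⁻¹ * A * C) = A * C := by group
      generalize C⁻¹ * A * C = D at q
      have q' := congrArg tp q
      rw [tp_mul, tp_mul, m] at q'
      simp only [tm, show tp C = (1, 0, 0, x / y) from rfl, Prod.mk.injEq] at q'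
      obtain ⟨q1, q2, q3, q4⟩ := q'
      refine Prod.ext (by simpa using q1) (Prod.ext (by simpa using q2) (Prod.ext ?_ (by simpa [k1, k2] using q4)))
      field_simp at q3 ⊢
      simpa [sq] using q3⟩
    exact ⟨B * C, full, sw, by rw [← cR_mul, e, e'], by rwa [← cW_mul]⟩
  · obtain ⟨full, sw, q⟩ := h'.wst fun x y m => (s ⟨x, y, m⟩).elim
    exact ⟨B, full, sw, e, q⟩

end CF.RV
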