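import Cfsg.Agent.RV.C1
import Cfsg.Agent.Xs.F

/-! The pairs `(W, R)` with at least three lines. -/

set_option autoImplicit false

namespace CF.RV

open Subgroup Matrix CF.Classical CF.Xs
open scoped MatrixGroups

variable {p : ℕ} [Fact p.Prime] {W W' : Subgroup (GL (Fin 2) (ZMod p))} {R R' : Set (ZMod p × ZMod p)}
  {A B : GL (Fin 2) (ZMod p)} {u v : ZMod p × ZMod p} {α β μ : ZMod p}

/-- the point of a vector -/
noncomputable def pt (v : ZMod p × ZMod p) : OnePoint (ZMod p) := ptOf ![v.1, v.2]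

theorem vec_ne (h : v ≠ 0) : (![v.1, v.2] : Fin 2 → ZMod p) ≠ 0 := fun e =>
  h (Prod.ext (congrFun e 0) (congrFun e 1))

theorem pt_ne (n : u.1 * v.2 ≠ u.2 * v.1) : pt u ≠ pt v := fun e => by
  obtain ⟨a, ha⟩ := (ptOf_eq_iff (vec_ne (by rintro rfl; simp at n)) (vec_ne (by rintro rfl; simp at n))).1 e
  have a0 : a * v.1 = u.1 := congrFun ha 0
  have a1 : a * v.2 = u.2 := congrFun ha 1
  exact n (by rw [← a0, ← a1]; ring)

theorem pt_fix (h : v ≠ 0) (e : ap A v = α • v) : ProjGenLinGroup.mk A • pt v = pt v := by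
  have q : (A : Matrix (Fin 2) (Fin 2) (ZMod p)) *ᵥ ![v.1, v.2] = ![(ap A v).1, (ap A v).2] := by
    ext i; fin_cases i <;> simp [ap, mulVec, dotProduct]
  rw [pt, mk_smul_ptOf _ (vec_ne h), q, ptOf_eq_iff (vec_ne (ap_ne A h)) (vec_ne h), e]
  exact ⟨α, by simp⟩

theorem tp_scalar (h : ProjGenLinGroup.mk A = 1) : tp A = (A 0 0, 0, 0, A 0 0) := by
  rw [mk_eq_pgl, pgl_eq_one_iff] at h
  rw [tp, h.1, h.2.1, h.2.2]

theorem eig_pow (h : v ≠ 0) (e : ap A v = α • v) {m : ℕ} (o : ProjGenLinGroup.mk A ^ m = 1) : dt A ^ m = α ^ (2 * m) := by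
  rw [← map_pow] at o
  have q := ap_pow e m
  rw [ap_tp, tp_scalar o, show ta ((A ^ m) 0 0, 0, 0, (A ^ m) 0 0) v = (A ^ m) 0 0 • v by ext <;> simp [ta]] at q
  rw [← dt_pow, dt_tp, tp_scalar o, smul_left_injective _ h q, td]
  ring

theorem ndvd (h : ∀ A ∈ W, A ^ p = 1 → A = 1) : ¬ p ∣ Nat.card (W.map ProjGenLinGroup.mk) := fun d => by
  obtain ⟨A, e⟩ := exists_prime_orderOf_dvd_card' p (d.trans (card_map_dvd _ _))
  have := h A A.2 (congrArg Subtype.val (e ▸ pow_orderOf_eq_one A))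
  rw [show A = 1 from Subtype.ext this, orderOf_one] at e
  exact (Fact.out : p.Prime).ne_one e.symm

theorem inj3 {w : ZMod p × ZMod p} (a : u.1 * v.2 ≠ u.2 * v.1) (b : u.1 * w.2 ≠ u.2 * w.1) (c : v.1 * w.2 ≠ v.2 * w.1) :
    Function.Injective fun i => pt (![u, v, w] i) := fun i j e => by
  have := pt_ne a
  have := pt_ne b
  have := pt_ne c
  fin_cases i <;> fin_cases j <;> simp_all

theorem Dat.prime (hp : p ≠ 2) (h : Dat W R) (h3 : Three R) : p = 3 ∨ p = 5 ∨ p = 7 ∨ p = 13 := by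
  have pr : p.Prime := Fact.out
  by_cases h7 : 7 < p
  · obtain ⟨u, hu, v, hv, w, hw, a, b, c⟩ := h3
    obtain ⟨g, hg⟩ := IsCyclic.exists_ofOrder_eq_natCard (α := (ZMod p)ˣ)
    refine .inr (.inr (.inr (klein_bound (ndvd h.pp) h7 _ (inj3 a b c) fun i => ?_).1))
    have m : ![u, v, w] i ∈ R := by fin_cases i <;> assumption
    obtain ⟨A, hA, e, d⟩ := h.tau _ m g g.ne_zero
    refine ⟨⟨_, A, hA, rfl⟩, pt_fix (h.ne _ m) e, fun k o => ?_⟩
    have := eig_pow (h.ne _ m) e (congrArg Subtype.val o)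
    rw [d, inv_pow, ← mul_eq_one_iff_eq_inv₀ (pow_ne_zero _ g.ne_zero), ← pow_add, ← Units.val_pow_eq_pow_val, Units.val_eq_one,
      ← orderOf_dvd_iff_pow_eq_one, hg, Nat.card_units, Nat.card_zmod] at this
    rwa [show 3 * k = k + 2 * k by ring]
  · have := pr.two_le
    interval_cases p <;> first | omega | exact absurd pr (by norm_num)

/-- the normal form -/
structure NF (W : Subgroup (GL (Fin 2) (ZMod p))) (R : Set (ZMod p × ZMod p)) (M N : T4 (ZMod p)) : Prop extends Dat W R where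
  e1 : (1, 0) ∈ R
  e2 : (1, 1) ∈ R
  M : Mm W M
  N : Mm W N

theorem Dat.nf (hp : p ≠ 2) (h : Dat W R) (h3 : Three R) (e : μ * α = 1) (n : α ≠ β) (b : μ ^ 2 = β) {N : T4 (ZMod p)}
    {L : List (List Bool)} (d : ∀ y, (y + β, α - β - y, y, α - y) = N ∨
      ∃ w ∈ L, Bad (ev (α, 0, 0, β) (y + β, α - β - y, y, α - y) w)) : ∃ B, NF (cW B W) (cR B R) (α, 0, 0, β) N := by
  have m0 : μ ≠ 0 := left_ne_zero_of_mul_eq_one e
  have i : μ⁻¹ = α := inv_eq_of_mul_eq_one_right e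
  have s1 : ∀ {W R}, Dat W R → (1, 0) ∈ R → (1, 1) ∈ R → Mm W (α, 0, 0, β) → NF W R (α, 0, 0, β) N := fun h e1 e2 M => by
    obtain ⟨A, hA, q, r⟩ := h.tau _ e2 μ m0
    simp only [i, ap, mul_one, Prod.smul_mk, smul_eq_mul, Prod.mk.injEq] at q
    have t : tp A = (A 1 0 + β, α - β - A 1 0, A 1 0, α - A 1 0) := by
      have : A 0 0 = A 1 0 + β := by
        rw [dt] at r
        linear_combination μ * r + b - μ * A 0 0 * q.2 + μ * A 1 0 * q.1 - (A 0 0 - A 1 0) * e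
      simp only [tp, Prod.mk.injEq, true_and]
      exact ⟨this, by linear_combination q.1 - this, by linear_combination q.2⟩
    have m : Mm _ _ := ⟨A, hA, t⟩
    exact ⟨h, e1, e2, M, (d _).elim (· ▸ m) fun ⟨w, _, o⟩ => (h.nb hp (M.ev m w) o).elim⟩
  have s2 : ∀ {W R}, Dat W R → Three R → (1, 0) ∈ R → ∃ B, NF (cW B W) (cR B R) (α, 0, 0, β) N := fun {W R} h h3 e1 => by
    obtain ⟨A, hA, q, r⟩ := h.tau _ e1 μ m0
    have q' := q
    simp only [i, ap, mul_one, mul_zero, add_zero, Prod.smul_mk, smul_eq_mul, Prod.mk.injEq] at q'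
    have a1 : A 1 1 = β := by
      rw [dt, q'.1, q'.2] at r
      linear_combination μ * r + b - A 1 1 * e
    obtain ⟨c, hc⟩ : ∃ c, α * c + A 0 1 = β * c := ⟨A 0 1 / (β - α), by have := sub_ne_zero.2 n.symm; field_simp; ring⟩
    obtain ⟨w, hw, w1, w2⟩ : ∃ w ∈ R, w.2 ≠ 0 ∧ w.1 - c * w.2 ≠ 0 := by
      by_contra! o
      obtain ⟨u, hu, v, hv, w, hw, x, y, z⟩ := h3
      have k : ∀ {u v}, u ∈ R → v ∈ R → u.1 * v.2 ≠ u.2 * v.1 → (u.2 = 0 ↔ v.2 ≠ 0) := fun {u v} hu hv x =>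
        ⟨fun s t => x (by simp [s, t]), fun t => by_contra fun s => x (by linear_combination v.2 * o u hu s - u.2 * o v hv t)⟩
      have := k hu hv x
      have := k hu hw y
      have := k hv hw z
      tauto
    let B : GL (Fin 2) (ZMod p) := gl (w.1 - c * w.2) (c * w.2) 0 w.2 (by simp [w1, w2])
    refine ⟨B, s1 (h.conj B) ?_ ?_ ⟨_, conj_cW hA B, ?_⟩⟩
    · simpa [mem_cR, B, ap_gl] using h.sm _ e1 _ w2
    · simpa [mem_cR, B, ap_gl] using hw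
    · have f1 := eig_conj (A := A) (B := B) (v := (1, 0)) (α := α) (by simp [B, ap_gl]; simp [ap, q'])
      have f2 := eig_conj (A := A) (B := B) (v := (0, 1)) (α := β) (by
        simp only [B, ap_gl]
        simp only [ap, q', a1, Prod.smul_mk, smul_eq_mul, Prod.mk.injEq]
        exact ⟨by linear_combination w.2 * hc, by ring⟩)
      generalize B⁻¹ * A * B = D at *
      simp only [ap, mul_one, mul_zero, add_zero, zero_add, Prod.smul_mk, smul_eq_mul, Prod.mk.injEq] at f1 f2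
      rw [tp, f1.1, f1.2, f2.1, f2.2]
  obtain ⟨u, hu, v, -, -, -, x, -⟩ := id h3
  obtain ⟨B, rfl, rfl⟩ := exists_basis x
  obtain ⟨C, k⟩ := s2 (h.conj B) (h3.conj B) hu
  exact ⟨B * C, by rwa [← cW_mul, ← cR_mul]⟩

theorem s4 (h : ∀ A ∈ W, A ^ p = 1 → A = 1) {N : T4 (ZMod p)} (hM : Mm W (α, 0, 0, β)) (hN : Mm W N)
    (e : ta N (1, 1) = α • (1, 1)) (d : td N = α * β) (n : ∀ m ∈ [2, 3, 5], (α * β) ^ m ≠ α ^ (2 * m))
    (n' : (α * β) ^ 2 ≠ β ^ (2 * 2)) : Nat.card (W.map ProjGenLinGroup.mk) = 24 ∧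
      ∀ A ∈ W, ∀ v ≠ 0, ∀ τ, ap A v = τ • v → dt A ^ 3 = τ ^ 6 ∨ dt A ^ 4 = τ ^ 8 := by
  obtain ⟨M, hM, eM⟩ := hM
  obtain ⟨N, hN, rfl⟩ := hN
  have dM : dt M = α * β := by simp [dt_tp, eM, td]
  have m1 : ap M (1, 0) = α • (1, 0) := by simp [ap_tp, eM, ta]
  have m2 : ap M (0, 1) = β • (0, 1) := by simp [ap_tp, eM, ta]
  have k : ∀ m ∈ [2, 3, 5], ¬ orderOf (⟨_, M, hM, rfl⟩ : W.map ProjGenLinGroup.mk) ∣ m := fun m s o =>
    n m s (dM ▸ eig_pow (by simp) m1 (congrArg Subtype.val (orderOf_dvd_iff_pow_eq_one.1 o)))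
  have k2 := k 2 (by simp)
  have k3 := k 3 (by simp)
  have k5 := k 5 (by simp)
  have q : ∀ {A v τ} (hA : A ∈ W), v ≠ 0 → ap A v = τ • v → dt A ^ 2 ≠ τ ^ (2 * 2) → ∃ g : W.map ProjGenLinGroup.mk,
      g • ratPt (AlgebraicClosure (ZMod p)) (pt v) = ratPt _ (pt v) ∧ g * g ≠ 1 := fun {A v τ} hA v0 e o =>
    ⟨⟨_, A, hA, rfl⟩, smul_ratPt_eq_iff.2 (pt_fix v0 e), fun r => o (eig_pow v0 e (by rw [sq]; exact congrArg Subtype.val r))⟩
  rcases klein_three (unip_eq_bot_of_not_dvd (ndvd h)) (fun i => ratPt _ (pt (![(1, 0), (0, 1), (1, 1)] i)))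
    (ratPt_injective.comp (inj3 (p := p) (u := (1, 0)) (v := (0, 1)) (w := (1, 1)) (by simp) (by simp) (by simp))) (fun i => by
      fin_cases i
      exacts [q hM (by simp) m1 (dM ▸ n 2 (by simp)), q hM (by simp) m2 (dM ▸ n'),
        q hN (by simp) e (by rw [dt_tp, d]; exact n 2 (by simp))]) with ⟨-, r⟩ | ⟨c, r⟩ | ⟨-, r⟩
  · rcases r _ with r | r <;> contradiction
  · exact ⟨c, fun A hA v v0 τ e => (r ⟨_, A, hA, rfl⟩).imp
      (fun o => eig_pow v0 e (congrArg Subtype.val (orderOf_dvd_iff_pow_eq_one.1 o)))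
      fun o => eig_pow v0 e (congrArg Subtype.val (orderOf_dvd_iff_pow_eq_one.1 o))⟩
  · rcases r _ with r | r | r <;> contradiction

/-- the lines in the orbits of the two given lines -/
def Ob (M N : T4 (ZMod p)) (L : List (List Bool)) (v : ZMod p × ZMod p) : Prop :=
  ∃ w ∈ L, ∃ k : ZMod p, k ≠ 0 ∧ (v = k • ta (ev M N w) (1, 0) ∨ v = k • ta (ev M N w) (1, 1))

theorem NF.ob {M N : T4 (ZMod p)} {L : List (List Bool)} (h : NF W R M N) (o : Ob M N L v) : v ∈ R := by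
  obtain ⟨w, -, k, k0, o⟩ := o
  obtain ⟨A, hA, e⟩ := h.M.ev h.N w
  rw [← e] at o
  rcases o with rfl | rfl
  exacts [h.sm _ (h.inv A hA _ h.e1) k k0, h.sm _ (h.inv A hA _ h.e2) k k0]

theorem NF.le4 {N : T4 (ZMod p)} (h : NF W R (α, 0, 0, β) N) (h' : NF W' R' (α, 0, 0, β) N)
    (e : ta N (1, 1) = α • (1, 1)) (d : td N = α * β) (n : ∀ m ∈ [2, 3, 5], (α * β) ^ m ≠ α ^ (2 * m))
    (n' : (α * β) ^ 2 ≠ β ^ (2 * 2)) {L L' L'' : List (List Bool)}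
    (z : ∀ z, z ≠ 0 → ∃ w ∈ L, ev (α, 0, 0, β) N w = (z, 0, 0, z)) (m : μ * α = 1)
    (o : ∀ v, v ≠ 0 → Ob (α, 0, 0, β) N L' v ∨ ∃ w ∈ L'', ∃ τ, ta (ev (α, 0, 0, β) N w) v = τ • v ∧
      (μ * td (ev (α, 0, 0, β) N w)) ^ 3 ≠ (α * τ) ^ 6 ∧ (μ * td (ev (α, 0, 0, β) N w)) ^ 4 ≠ (α * τ) ^ 8) :
    W ≤ W' ∧ R ⊆ R' := by
  obtain ⟨c, f⟩ := s4 h.pp h.M h.N e d n n'
  have k : ∀ {t}, Mm W t → Mm W' t → Mm (W ⊓ W') t := fun ⟨A, a, e⟩ b => ⟨A, ⟨a, mm_tp.1 (e ▸ b)⟩, e⟩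
  have c' := (s4 (W := W ⊓ W') (fun A hA => h.pp A hA.1) (k h.M h'.M) (k h.N h'.N) e d n n').1
  have := eq_of_le_of_card_ge (map_mono (f := ProjGenLinGroup.mk) (inf_le_left (a := W) (b := W'))) (by rw [c, c'])
  refine ⟨fun A hA => ?_, fun v hv => h'.ob ((o v (h.ne v hv)).resolve_right ?_)⟩
  · obtain ⟨B, hB, q⟩ := this.ge (mem_map_of_mem _ hA)
    have s : ProjGenLinGroup.mk (B⁻¹ * A) = 1 := by rw [map_mul, map_inv, q, inv_mul_cancel]
    obtain ⟨w, -, r⟩ := z ((B⁻¹ * A) 0 0) fun o => dt_ne (B⁻¹ * A) (by rw [dt_tp, tp_scalar s, o]; simp [td])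
    rw [← tp_scalar s] at r
    exact (mul_mem_cancel_left (inv_mem (mem_inf.1 hB).2)).1 (mm_tp.1 (r ▸ h'.M.ev h'.N w))
  · rintro ⟨w, -, τ, r, s, t⟩
    obtain ⟨T, hT, q⟩ := h.M.ev h.N w
    obtain ⟨A, hA, a, b⟩ := h.tau v hv μ (left_ne_zero_of_mul_eq_one m)
    rw [← q, ← dt_tp, ← b, ← dt_mul] at s t
    rw [← q, ← ap_tp] at r
    exact (f _ (mul_mem hA hT) v (h.ne v hv) _ (by
      rw [ap_mul, r, ap_smul, a, smul_smul, mul_comm, inv_eq_of_mul_eq_one_right m])).elim s t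

end CF.RV
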