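import Cfsg.Agent.RV.C2

/-! Uniqueness of the pairs `(W, R)` with at least three lines for `p = 3, 5, 13`. -/

set_option autoImplicit false

namespace CF.RV

open Subgroup

/-- words from binary digits -/
def wd : ℕ → ℕ → List Bool
  | 0, _ => []
  | k + 1, n => (n % 2 == 1) :: wd k (n / 2)

instance instDecidableOb {p : ℕ} [Fact p.Prime] [NeZero p] (M N : T4 (ZMod p)) (L : List (List Bool)) (v : ZMod p × ZMod p) :
    Decidable (Ob M N L v) := inferInstanceAs (Decidable (∃ _ ∈ L, _))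

section
variable {p : ℕ} [Fact p.Prime] {W W' : Subgroup (GL (Fin 2) (ZMod p))} {R R' : Set (ZMod p × ZMod p)}

theorem uq_of {M N : T4 (ZMod p)} (h : ∃ B, NF (cW B W) (cR B R) M N) (h' : ∃ B, NF (cW B W') (cR B R') M N)
    (P : Subgroup (GL (Fin 2) (ZMod p)) → Prop) (c : ∀ B W, P (cW B W) ↔ P W) (e : P W ↔ P W')
    (k : ∀ {W W' R R'}, NF W R M N → NF W' R' M N → (P W → P W') → W ≤ W' ∧ R ⊆ R') :
    ∃ B B', cW B W = cW B' W' ∧ cR B R = cR B' R' := by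
  obtain ⟨B, h⟩ := h
  obtain ⟨B', h'⟩ := h'
  have a := k h h' (by rw [c, c]; exact e.1)
  have b := k h' h (by rw [c, c]; exact e.2)
  exact ⟨B, B', a.1.antisymm b.1, a.2.antisymm b.2⟩

theorem ncard_conj (B : GL (Fin 2) (ZMod p)) {L : Finset (T4 (ZMod p))} (h : ∀ t ∈ L, Mm (cW B W) t ∧ td t = 1) :
    L.card ≤ {A | A ∈ W ∧ dt A = 1}.ncard := by
  rw [← Set.ncard_image_of_injective _ (tp_inj.comp (MulAut.conj B⁻¹).injective), ← Set.ncard_coe_finset]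
  refine Set.ncard_le_ncard (fun t ht => ?_) (Set.toFinite _)
  obtain ⟨⟨A, hA, rfl⟩, d⟩ := h t ht
  exact ⟨B * A * B⁻¹, ⟨hA, by simpa using (dt_conj A B⁻¹).trans d⟩, by simp [mul_assoc]⟩

end

section five
local instance instFact5 : Fact (Nat.Prime 5) := ⟨by norm_num⟩

variable {W W' : Subgroup (GL (Fin 2) (ZMod 5))} {R R' : Set (ZMod 5 × ZMod 5)}

theorem Dat.nf5 (h : Dat W R) (h3 : Three R) : ∃ B, NF (cW B W) (cR B R) (3, 0, 0, 4) (1, 2, 2, 1) :=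
  h.nf (μ := 2) (L := [wd 2 2, wd 4 8]) (by decide) h3 (by decide +kernel) (by decide +kernel) (by decide +kernel)
    (by decide +kernel)

theorem NF.le5 (h : NF W R (3, 0, 0, 4) (1, 2, 2, 1)) (h' : NF W' R' (3, 0, 0, 4) (1, 2, 2, 1)) : W ≤ W' ∧ R ⊆ R' :=
  h.le4 (μ := 2) (L := [[], wd 6 36, wd 8 204, wd 10 792]) (L' := [[], wd 1 0, wd 1 1, wd 2 0, wd 2 3]) (L'' := []) h'
    (by decide +kernel) (by decide +kernel) (by decide +kernel) (by decide +kernel) (by decide +kernel)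
    (by decide +kernel) (by decide +kernel)

end five

section thirteen
local instance instFact13 : Fact (Nat.Prime 13) := ⟨by norm_num⟩

variable {W W' : Subgroup (GL (Fin 2) (ZMod 13))} {R R' : Set (ZMod 13 × ZMod 13)}

theorem Dat.nf13 (h : Dat W R) (h3 : Three R) : ∃ B, NF (cW B W) (cR B R) (7, 0, 0, 4) (12, 8, 8, 12) :=
  h.nf (μ := 2) (L := [wd 2 2, wd 4 8, wd 6 40, wd 8 232, wd 10 808, wd 10 712]) (by decide) h3 (by decide +kernel)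
    (by decide +kernel) (by decide +kernel) (by decide +kernel)

theorem NF.le13 (h : NF W R (7, 0, 0, 4) (12, 8, 8, 12)) (h' : NF W' R' (7, 0, 0, 4) (12, 8, 8, 12)) : W ≤ W' ∧ R ⊆ R' :=
  h.le4 (μ := 2) (L := [[], wd 4 0, wd 6 36, wd 8 0, wd 8 204, wd 10 576, wd 10 792, wd 12 3264, wd 14 9216, wd 14 12672,
    wd 16 52224, wd 18 202752]) (L' := [[], wd 1 0, wd 1 1, wd 2 0, wd 2 3]) (L'' := [wd 4 8, wd 4 14, wd 2 2, wd 2 1]) h'
    (by decide +kernel) (by decide +kernel) (by decide +kernel) (by decide +kernel) (by decide +kernel)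
    (by decide +kernel) (by decide +kernel)

end thirteen

section three

/-- words for the dihedral group of order eight -/
def d8 : List (List Bool) := [[], wd 1 0, wd 1 1, wd 2 2, wd 2 1, wd 3 2, wd 3 5, wd 4 10]

/-- its other coset in the semidihedral group -/
def sd : List (T4 (ZMod 3)) :=
  [(1, 1, 1, 2), (1, 1, 2, 1), (1, 2, 1, 1), (1, 2, 2, 2), (2, 1, 1, 1), (2, 1, 2, 2), (2, 2, 1, 2), (2, 2, 2, 1)]

/-- evaluation in the dihedral group -/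
def e3 : List Bool → T4 (ZMod 3) := ev (2, 0, 0, 1) (0, 2, 2, 0)

set_option synthInstance.maxSize 1024 in
theorem d1 : ∀ t : T4 (ZMod 3), td t ≠ 0 → (∃ w ∈ d8, e3 w = t) ∨ t ∈ sd ∨ ∃ w ∈ d8, Bad (tm t (e3 w)) := by
  decide +kernel

theorem d2 : ∀ s ∈ sd, ∀ t ∈ sd, ∃ w ∈ d8, tm s (e3 w) = t := by decide +kernel

theorem d3 : ∀ w ∈ d8, tm (tm (e3 w) (e3 w)) (tm (e3 w) (e3 w)) = (1, 0, 0, 1) := by decide +kernel

theorem tp_four {K : Type} [CommRing K] (A : GL (Fin 2) K) : A ^ 4 = 1 ↔ tm (tm (tp A) (tp A)) (tm (tp A) (tp A)) = (1, 0, 0, 1) := by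
  rw [← tp_mul, ← tp_mul, ← tp_one, tp_inj.eq_iff, ← sq, ← sq, ← pow_mul]

variable {W W' : Subgroup (GL (Fin 2) (ZMod 3))} {R R' : Set (ZMod 3 × ZMod 3)}

theorem Dat.nf3 (h : Dat W R) (h3 : Three R) : ∃ B, NF (cW B W) (cR B R) (2, 0, 0, 1) (0, 2, 2, 0) :=
  h.nf (μ := 2) (L := [wd 2 2]) (by decide) h3 (by decide +kernel) (by decide +kernel) (by decide +kernel)
    (by decide +kernel)

theorem NF.cases3 (h : NF W R (2, 0, 0, 1) (0, 2, 2, 0)) {A : GL (Fin 2) (ZMod 3)} (hA : A ∈ W) :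
    (∃ w ∈ d8, e3 w = tp A) ∨ tp A ∈ sd :=
  (d1 (tp A) (dt_ne A)).imp_right fun o => o.resolve_right fun ⟨w, _, b⟩ =>
    h.nb (by decide) ((mm_tp.2 hA).mul (h.M.ev h.N w)) b

theorem NF.big (h : NF W R (2, 0, 0, 1) (0, 2, 2, 0)) : Big W ↔ ∀ t ∈ sd, Mm W t := by
  refine ⟨fun ⟨A, hA, n⟩ t ht => ?_, fun k => ?_⟩
  · obtain ⟨w, -, rfl⟩ := d2 _ ((h.cases3 hA).resolve_left fun ⟨w, s, e⟩ => n ((tp_four A).2 (e ▸ d3 w s))) t ht
    exact (mm_tp.2 hA).mul (h.M.ev h.N w)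
  · obtain ⟨A, hA, e⟩ := k (1, 1, 2, 1) (by decide +kernel)
    exact ⟨A, hA, by rw [Ne, tp_four, e]; decide +kernel⟩

theorem NF.le3 (h : NF W R (2, 0, 0, 1) (0, 2, 2, 0)) (h' : NF W' R' (2, 0, 0, 1) (0, 2, 2, 0)) (b : Big W → Big W') :
    W ≤ W' ∧ R ⊆ R' := by
  refine ⟨fun A hA => mm_tp.1 ?_, fun v hv => h'.ob (L := d8) ?_⟩
  · rcases h.cases3 hA with ⟨w, -, e⟩ | e
    · exact e ▸ h'.M.ev h'.N w
    · refine h'.big.1 (b (h.big.2 fun t ht => ?_)) _ e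
      obtain ⟨w, -, rfl⟩ := d2 _ e t ht
      exact (mm_tp.2 hA).mul (h.M.ev h.N w)
  · exact (by decide +kernel : ∀ v : ZMod 3 × ZMod 3, v ≠ 0 → Ob (2, 0, 0, 1) (0, 2, 2, 0) d8 v) v (h.ne v hv)

theorem Dat.q83 (h : Dat W R) (h3 : Three R) :
    (Big W → 8 ≤ {A | A ∈ W ∧ dt A = 1}.ncard) ∧ 4 ≤ {A | A ∈ W ∧ dt A = 1}.ncard := by
  obtain ⟨B, k⟩ := h.nf3 h3
  have q : ∀ t ∈ ({(1, 0, 0, 1), (0, 1, 2, 0), (0, 2, 1, 0), (2, 0, 0, 2)} : Finset (T4 (ZMod 3))),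
      (∃ w ∈ d8, e3 w = t) ∧ td t = 1 := by decide +kernel
  have q' : ∀ t ∈ ({(1, 0, 0, 1), (0, 1, 2, 0), (0, 2, 1, 0), (2, 0, 0, 2), (1, 1, 1, 2), (1, 2, 2, 2), (2, 1, 1, 1),
      (2, 2, 2, 1)} : Finset (T4 (ZMod 3))), ((∃ w ∈ d8, e3 w = t) ∨ t ∈ sd) ∧ td t = 1 := by decide +kernel
  have m : ∀ t, (∃ w ∈ d8, e3 w = t) → Mm (cW B W) t := fun t ⟨w, _, e⟩ => e ▸ k.M.ev k.N w
  exact ⟨fun b => le_of_eq_of_le (by decide +kernel) (ncard_conj B fun t ht =>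
    ⟨(q' t ht).1.elim (m t) (k.big.1 (b.conj B) t), (q' t ht).2⟩),
    le_of_eq_of_le (by decide +kernel) (ncard_conj B fun t ht => ⟨m t (q t ht).1, (q t ht).2⟩)⟩

end three

variable {p : ℕ} [Fact p.Prime] {W W' : Subgroup (GL (Fin 2) (ZMod p))} {R R' : Set (ZMod p × ZMod p)}

theorem Dat.uniq (h : Dat W R) (h' : Dat W' R') (h3 : Three R) (h3' : Three R')
    (hp : p = 5 ∨ p = 13 ∨ (p = 3 ∧ (Big W ↔ Big W'))) : ∃ B B', cW B W = cW B' W' ∧ cR B R = cR B' R' := by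
  rcases hp with rfl | rfl | ⟨rfl, b⟩
  · exact uq_of (h.nf5 h3) (h'.nf5 h3') (fun _ => True) (fun _ _ => Iff.rfl) Iff.rfl fun a b _ => a.le5 b
  · exact uq_of (h.nf13 h3) (h'.nf13 h3') (fun _ => True) (fun _ _ => Iff.rfl) Iff.rfl fun a b _ => a.le13 b
  · exact uq_of (h.nf3 h3) (h'.nf3 h3') Big (fun B _ => big_conj B) b NF.le3

theorem Dat.q8 (h : Dat W R) (h3 : Three R) (hp : p = 3) :
    (Big W → 8 ≤ {A | A ∈ W ∧ dt A = 1}.ncard) ∧ 4 ≤ {A | A ∈ W ∧ dt A = 1}.ncard := by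
  subst hp
  exact h.q83 h3

end CF.RV
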