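import Mathlib.Algebra.Group.MinimalAxioms
import Mathlib.LinearAlgebra.Matrix.GeneralLinearGroup.Defs
import Mathlib.LinearAlgebra.Matrix.Determinant.Basic
import Mathlib.FieldTheory.Finite.Basic
import Mathlib.GroupTheory.OrderOfElement
import Mathlib.Tactic

/-! The extraspecial group of order `p³` and exponent `p` in coordinates, and the data `(W, R)` of a fusion system
over it: `W ≤ GL₂(p)` is the outer automorphism group, `R` the set of vectors on the essential lines. -/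

set_option autoImplicit false

namespace CF.RV

open Matrix

/-- the Heisenberg group -/
@[ext] structure Hs (K : Type) where
  a : K
  b : K
  c : K

section ring
variable {K : Type} [CommRing K]

instance instMulHs : Mul (Hs K) := ⟨fun x y => ⟨x.a + y.a, x.b + y.b, x.c + y.c + (x.a * y.b - x.b * y.a)⟩⟩
instance instOneHs : One (Hs K) := ⟨⟨0, 0, 0⟩⟩
instance instInvHs : Inv (Hs K) := ⟨fun x => ⟨-x.a, -x.b, -x.c⟩⟩

@[simp] theorem mul_a (x y : Hs K) : (x * y).a = x.a + y.a := rfl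
@[simp] theorem mul_b (x y : Hs K) : (x * y).b = x.b + y.b := rfl
@[simp] theorem mul_c (x y : Hs K) : (x * y).c = x.c + y.c + (x.a * y.b - x.b * y.a) := rfl
@[simp] theorem one_a : (1 : Hs K).a = 0 := rfl
@[simp] theorem one_b : (1 : Hs K).b = 0 := rfl
@[simp] theorem one_c : (1 : Hs K).c = 0 := rfl
@[simp] theorem inv_a (x : Hs K) : x⁻¹.a = -x.a := rfl
@[simp] theorem inv_b (x : Hs K) : x⁻¹.b = -x.b := rfl
@[simp] theorem inv_c (x : Hs K) : x⁻¹.c = -x.c := rfl

instance instGroupHs : Group (Hs K) :=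
  Group.ofLeftAxioms (fun x y z => by ext <;> simp <;> ring) (fun x => by ext <;> simp)
    fun x => by ext <;> simp <;> ring

/-- coordinates -/
def Hs.equiv : Hs K ≃ K × K × K := ⟨fun x => (x.a, x.b, x.c), fun x => ⟨x.1, x.2.1, x.2.2⟩, fun _ => rfl, fun _ => rfl⟩

instance instFiniteHs [Finite K] : Finite (Hs K) := Finite.of_equiv _ Hs.equiv.symm

theorem card_Hs : Nat.card (Hs K) = Nat.card K ^ 3 := by
  rw [Nat.card_congr Hs.equiv, Nat.card_prod, Nat.card_prod]; ring

theorem pow_eq (x : Hs K) (n : ℕ) : x ^ n = ⟨n * x.a, n * x.b, n * x.c⟩ := by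
  induction n with
  | zero => ext <;> simp
  | succ n ih => rw [pow_succ, ih]; ext <;> simp <;> ring

theorem zpow_eq (x : Hs K) (n : ℤ) : x ^ n = ⟨n * x.a, n * x.b, n * x.c⟩ := by
  rcases n with n | n
  · simp [pow_eq]
  · rw [zpow_negSucc, pow_eq]; ext <;> simp [Int.negSucc_eq] <;> ring

theorem conj_eq (s x : Hs K) : s * x * s⁻¹ = ⟨x.a, x.b, x.c + 2 * (s.a * x.b - s.b * x.a)⟩ := by
  ext <;> simp <;> ring

/-- the determinant as a ring element -/
def dt (A : GL (Fin 2) K) : K := A 0 0 * A 1 1 - A 0 1 * A 1 0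

theorem dt_eq (A : GL (Fin 2) K) : dt A = (A : Matrix (Fin 2) (Fin 2) K).det := (det_fin_two _).symm

theorem dt_mul (A B : GL (Fin 2) K) : dt (A * B) = dt A * dt B := by
  simp only [dt_eq, Units.val_mul, det_mul]

theorem dt_one : dt (1 : GL (Fin 2) K) = 1 := by simp [dt_eq]

/-- the action on vectors -/
def ap (A : GL (Fin 2) K) (v : K × K) : K × K := (A 0 0 * v.1 + A 0 1 * v.2, A 1 0 * v.1 + A 1 1 * v.2)

theorem ap_mul (A B : GL (Fin 2) K) (v : K × K) : ap (A * B) v = ap A (ap B v) := by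
  ext <;> simp [ap, mul_apply, Fin.sum_univ_two] <;> ring

theorem ap_one (v : K × K) : ap (1 : GL (Fin 2) K) v = v := by ext <;> simp [ap]

theorem ap_smul (A : GL (Fin 2) K) (k : K) (v : K × K) : ap A (k • v) = k • ap A v := by
  ext <;> simp [ap] <;> ring

theorem ap_inv (A : GL (Fin 2) K) (v : K × K) : ap A⁻¹ (ap A v) = v := by rw [← ap_mul, inv_mul_cancel, ap_one]

theorem ap_inv' (A : GL (Fin 2) K) (v : K × K) : ap A (ap A⁻¹ v) = v := by rw [← ap_mul, mul_inv_cancel, ap_one]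

theorem ap_zero (A : GL (Fin 2) K) : ap A 0 = 0 := by ext <;> simp [ap]

theorem ap_ne (A : GL (Fin 2) K) {v : K × K} (h : v ≠ 0) : ap A v ≠ 0 := fun e =>
  h (by rw [← ap_inv A v, e, ap_zero])

/-- the element with image `v` modulo the centre -/
def el (v : K × K) (c : K) : Hs K := ⟨v.1, v.2, c⟩

/-- the action on the group -/
def actF (A : GL (Fin 2) K) (x : Hs K) : Hs K := el (ap A (x.a, x.b)) (dt A * x.c)

theorem actF_mul (A B : GL (Fin 2) K) (x : Hs K) : actF (A * B) x = actF A (actF B x) := by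
  simp only [actF, ap_mul, dt_mul, el, mul_assoc]

theorem actF_one (x : Hs K) : actF 1 x = x := by simp only [actF, ap_one, dt_one, el, one_mul]

/-- the action of `GL₂` by automorphisms -/
def act : GL (Fin 2) K →* MulAut (Hs K) where
  toFun A :=
    { toFun := actF A
      invFun := actF A⁻¹
      left_inv := fun x => by rw [← actF_mul, inv_mul_cancel, actF_one]
      right_inv := fun x => by rw [← actF_mul, mul_inv_cancel, actF_one]
      map_mul' := fun x y => by ext <;> simp [actF, el, ap, dt] <;> ring }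
  map_one' := MulEquiv.ext actF_one
  map_mul' A B := MulEquiv.ext (actF_mul A B)

theorem act_el (A : GL (Fin 2) K) (v : K × K) (c : K) : act A (el v c) = el (ap A v) (dt A * c) := rfl

end ring

variable {p : ℕ} [Fact p.Prime]

/-- what saturation says about the pair `(W, R)` -/
structure Dat (W : Subgroup (GL (Fin 2) (ZMod p))) (R : Set (ZMod p × ZMod p)) : Prop where
  pp : ∀ A ∈ W, A ^ p = 1 → A = 1
  ne : ∀ v ∈ R, v ≠ 0
  sm : ∀ v ∈ R, ∀ k : ZMod p, k ≠ 0 → k • v ∈ R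
  inv : ∀ A ∈ W, ∀ v ∈ R, ap A v ∈ R
  tau : ∀ v ∈ R, ∀ μ : ZMod p, μ ≠ 0 → ∃ A ∈ W, ap A v = μ⁻¹ • v ∧ dt A = μ

section grp
variable {G : Type*} [Group G]

/-- matrices induced by the normalizer in `H` -/
def WG (t : Hs (ZMod p) →* G) (H : Subgroup G) : Subgroup (GL (Fin 2) (ZMod p)) where
  carrier := {A | ∃ g ∈ H, ∀ x, g * t x * g⁻¹ = t (act A x)}
  one_mem' := ⟨1, H.one_mem, fun x => by simp⟩
  mul_mem' := by
    rintro A B ⟨g, hg, e⟩ ⟨k, hk, e'⟩
    exact ⟨g * k, H.mul_mem hg hk, fun x => by rw [map_mul, MulAut.mul_apply, ← e, ← e']; group⟩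
  inv_mem' := by
    rintro A ⟨g, hg, e⟩
    refine ⟨g⁻¹, H.inv_mem hg, fun x => ?_⟩
    have := e (act A⁻¹ x)
    rw [← MulAut.mul_apply, ← map_mul, mul_inv_cancel, map_one, MulAut.one_apply] at this
    rw [← this]; group

/-- vectors below an element that is conjugate in `H` to a central element -/
def RG (t : Hs (ZMod p) →* G) (H : Subgroup G) : Set (ZMod p × ZMod p) :=
  {v | v ≠ 0 ∧ ∃ c c', ∃ g ∈ H, g * t (el v c) * g⁻¹ = t (el 0 c')}

/-- `t` maps onto a Sylow subgroup of the finite group `H` -/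
structure Emb (t : Hs (ZMod p) →* G) (H : Subgroup G) : Prop where
  fin : Finite H
  inj : Function.Injective t
  mem : ∀ x, t x ∈ H
  syl : ¬ p ^ 4 ∣ Nat.card H

/-- three elements with the relations of the extraspecial group -/
structure Tri (p : ℕ) (a b c : G) : Prop where
  pa : a ^ p = 1
  pb : b ^ p = 1
  pc : c ^ p = 1
  ne : c ≠ 1
  ca : Commute c a
  cb : Commute c b
  ab : a * b = b * a * c ^ 2

end grp

/-- the pair `(W, R)` comes from a finite group -/
def Rz (W : Subgroup (GL (Fin 2) (ZMod p))) (R : Set (ZMod p × ZMod p)) : Prop :=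
  ∃ (G : Type) (_ : Group G) (t : Hs (ZMod p) →* G) (H : Subgroup G), Emb t H ∧ WG t H = W ∧ RG t H = R

/-- a finite group with three essential lines -/
def Wit (p : ℕ) : Prop :=
  ∃ (G : Type) (_ : Group G) (_ : Finite G) (a b c : G), Tri p a b c ∧ ¬ p ^ 4 ∣ Nat.card G ∧
    (∃ g, g * a * g⁻¹ ∈ Subgroup.zpowers c) ∧ (∃ g, g * b * g⁻¹ ∈ Subgroup.zpowers c) ∧
    ∃ i j k : ℕ, ¬ p ∣ i ∧ ¬ p ∣ j ∧ ∃ g, g * (a ^ i * b ^ j * c ^ k) * g⁻¹ ∈ Subgroup.zpowers c

/-- there are three distinct lines -/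
def Three (R : Set (ZMod p × ZMod p)) : Prop :=
  ∃ u ∈ R, ∃ v ∈ R, ∃ w ∈ R, u.1 * v.2 ≠ u.2 * v.1 ∧ u.1 * w.2 ≠ u.2 * w.1 ∧ v.1 * w.2 ≠ v.2 * w.1

end CF.RV
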