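import Cfsg.Agent.RV.Defs

/-! Homomorphisms from the extraspecial group, and change of basis. -/

set_option autoImplicit false

namespace CF.RV

open Subgroup

variable {p : ℕ} [Fact p.Prime] {G : Type*} [Group G] {a b c : G}

/-- powers with exponents modulo `p` -/
def zp (a : G) (x : ZMod p) : G := a ^ x.val

theorem zp_cast (h : a ^ p = 1) (n : ℤ) : zp a (n : ZMod p) = a ^ n := by
  have : NeZero p := ⟨(Fact.out : p.Prime).ne_zero⟩
  rw [zp, ← zpow_natCast, ZMod.val_intCast, zpow_eq_zpow_iff_modEq]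
  exact (Int.mod_modEq n p).of_dvd (Int.natCast_dvd_natCast.2 (orderOf_dvd_of_pow_eq_one h))

theorem exists_cast (x : ZMod p) : ∃ n : ℤ, (n : ZMod p) = x := ZMod.intCast_surjective x

theorem Tri.swap_pow (h : Tri p a b c) (m n : ℤ) : b ^ n * a ^ m = a ^ m * b ^ n * c ^ (-(2 * m * n)) := by
  have e : a⁻¹ * b * a = b * c ^ (-2 : ℤ) := by
    have := h.ab
    have k : b * a = a * b * c ^ (-2 : ℤ) := by rw [this]; group
    rw [mul_assoc, k]; group
  have e1 : ∀ m : ℤ, a ^ (-m) * b * a ^ m = b * c ^ (-(2 * m)) := fun m => by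
    have e' : a * b * a⁻¹ = b * c ^ (2 : ℤ) := by
      rw [h.ab, mul_assoc, (h.ca.inv_right.pow_left 2).eq]; group
    induction m using Int.induction_on with
    | zero => simp
    | succ n ih =>
      calc _ = a⁻¹ * (a ^ (-(n : ℤ)) * b * a ^ (n : ℤ)) * a := by group
        _ = a⁻¹ * b * a * c ^ (-(2 * (n : ℤ))) := by
          rw [ih, mul_assoc, mul_assoc, (h.ca.zpow_left _).eq]; group
        _ = _ := by rw [e]; group
    | pred n ih =>
      calc _ = a * (a ^ (-(-(n : ℤ))) * b * a ^ (-(n : ℤ))) * a⁻¹ := by group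
        _ = a * b * a⁻¹ * c ^ (-(2 * (-(n : ℤ)))) := by
          rw [ih, mul_assoc, mul_assoc, (h.ca.inv_right.zpow_left _).eq]; group
        _ = _ := by rw [e']; group
  have e2 : a ^ (-m) * b ^ n * a ^ m = b ^ n * c ^ (-(2 * m * n)) := by
    have : a ^ (-m) * b ^ n * a ^ m = (a ^ (-m) * b * (a ^ (-m))⁻¹) ^ n := by rw [conj_zpow]; group
    rw [this, ← zpow_neg, neg_neg, e1, (h.cb.symm.zpow_right _).mul_zpow, ← zpow_mul, neg_mul]
  rw [mul_assoc, ← e2]; group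

theorem Tri.exists_hom (h : Tri p a b c) (hp : p ≠ 2) : ∃ t : Hs (ZMod p) →* G, Function.Injective t ∧
    ∀ x y w : ℤ, t ⟨x, y, w⟩ = a ^ x * b ^ y * c ^ (w - x * y) := by
  have k : ∀ x y w : ℤ, zp a (x : ZMod p) * zp b (y : ZMod p) * zp c ((w : ZMod p) - (x : ZMod p) * (y : ZMod p)) =
      a ^ x * b ^ y * c ^ (w - x * y) := fun x y w => by
    rw [zp_cast h.pa, zp_cast h.pb, ← zp_cast h.pc (w - x * y)]; push_cast; rfl
  let t : Hs (ZMod p) →* G := MonoidHom.mk' (fun u => zp a u.a * zp b u.b * zp c (u.c - u.a * u.b)) (by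
    rintro ⟨x, y, w⟩ ⟨x', y', w'⟩
    obtain ⟨x, rfl⟩ := exists_cast x
    obtain ⟨y, rfl⟩ := exists_cast y
    obtain ⟨w, rfl⟩ := exists_cast w
    obtain ⟨x', rfl⟩ := exists_cast x'
    obtain ⟨y', rfl⟩ := exists_cast y'
    obtain ⟨w', rfl⟩ := exists_cast w'
    have := k (x + x') (y + y') (w + w' + (x * y' - y * x'))
    push_cast at this
    simp only [mul_a, mul_b, mul_c, this, k]
    have m : ∀ (u : G) (i j : ℤ), u * c ^ i * a ^ j = u * a ^ j * c ^ i := fun u i j => by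
      rw [mul_assoc, (h.ca.zpow_zpow _ _).eq, mul_assoc]
    have m' : ∀ (u : G) (i j : ℤ), u * c ^ i * b ^ j = u * b ^ j * c ^ i := fun u i j => by
      rw [mul_assoc, (h.cb.zpow_zpow _ _).eq, mul_assoc]
    simp only [← mul_assoc, m, m']
    rw [mul_assoc (a ^ x) (b ^ y), h.swap_pow x' y]
    simp only [← mul_assoc, m']
    group)
  have z : ∀ w : ZMod p, t ⟨0, 0, w⟩ = 1 → w = 0 := fun w e => by
    obtain ⟨w, rfl⟩ := exists_cast w
    have e' : c ^ w = 1 := by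
      have := k 0 0 w
      simp only [Int.cast_zero, mul_zero, sub_zero, zpow_zero, one_mul] at this
      rw [← this]; simpa [t] using e
    rw [ZMod.intCast_zmod_eq_zero_iff_dvd, ← orderOf_eq_prime h.pc h.ne]
    exact orderOf_dvd_iff_zpow_eq_one.2 e'
  have two : (2 : ZMod p) ≠ 0 := fun e => hp ((Nat.prime_dvd_prime_iff_eq Fact.out Nat.prime_two).1
    ((ZMod.natCast_eq_zero_iff 2 p).1 e))
  refine ⟨t, (injective_iff_map_eq_one t).2 fun u e => ?_, k⟩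
  have f : ∀ s : Hs (ZMod p), s.a * u.b - s.b * u.a = 0 := fun s => by
    have := z (2 * (s.a * u.b - s.b * u.a)) (by
      rw [show (⟨0, 0, 2 * (s.a * u.b - s.b * u.a)⟩ : Hs (ZMod p)) = s * u * s⁻¹ * u⁻¹ by ext <;> simp; ring]
      simp [e])
    exact (mul_eq_zero.1 this).resolve_left two
  have f1 : u.b = 0 := by simpa using f ⟨1, 0, 0⟩
  have f2 : u.a = 0 := by simpa using f ⟨0, 1, 0⟩
  obtain ⟨x, y, w⟩ := u
  obtain rfl : y = 0 := f1
  obtain rfl : x = 0 := f2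
  obtain rfl := z w e
  rfl

variable {W : Subgroup (GL (Fin 2) (ZMod p))} {R : Set (ZMod p × ZMod p)}

/-- the conjugate group -/
def cW (B : GL (Fin 2) (ZMod p)) (W : Subgroup (GL (Fin 2) (ZMod p))) : Subgroup (GL (Fin 2) (ZMod p)) :=
  W.comap (MulAut.conj B).toMonoidHom

/-- the lines in the new basis -/
def cR (B : GL (Fin 2) (ZMod p)) (R : Set (ZMod p × ZMod p)) : Set (ZMod p × ZMod p) := ap B ⁻¹' R

theorem mem_cW {A B : GL (Fin 2) (ZMod p)} : A ∈ cW B W ↔ B * A * B⁻¹ ∈ W := Iff.rfl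

theorem mem_cR {B : GL (Fin 2) (ZMod p)} {v : ZMod p × ZMod p} : v ∈ cR B R ↔ ap B v ∈ R := Iff.rfl

theorem cW_inv (B : GL (Fin 2) (ZMod p)) : cW B⁻¹ (cW B W) = W := by
  ext A; simp [mem_cW, mul_assoc]

theorem cR_inv (B : GL (Fin 2) (ZMod p)) : cR B⁻¹ (cR B R) = R := by
  ext v; simp [mem_cR, ap_inv']

theorem dt_ne (A : GL (Fin 2) (ZMod p)) : dt A ≠ 0 := fun e => by
  have := dt_mul A A⁻¹
  rw [mul_inv_cancel, dt_one, e, zero_mul] at this
  exact one_ne_zero this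

theorem dt_conj (A B : GL (Fin 2) (ZMod p)) : dt (B⁻¹ * A * B) = dt A := by
  rw [dt_mul, dt_mul, mul_right_comm, ← dt_mul, inv_mul_cancel, dt_one, one_mul]

theorem Dat.conj (h : Dat W R) (B : GL (Fin 2) (ZMod p)) : Dat (cW B W) (cR B R) where
  pp A hA e := by
    have := h.pp _ (mem_cW.1 hA) (by rw [conj_pow, e]; simp)
    simpa [mul_inv_eq_iff_eq_mul] using this
  ne v hv e := h.ne _ hv (by rw [e, ap_zero])
  sm v hv k hk := by rw [mem_cR, ap_smul]; exact h.sm _ hv k hk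
  inv A hA v hv := by
    have := h.inv _ (mem_cW.1 hA) _ (mem_cR.1 hv)
    rwa [ap_mul, ap_inv, ap_mul] at this
  tau v hv μ hμ := by
    obtain ⟨A, hA, e1, e2⟩ := h.tau _ hv μ hμ
    exact ⟨B⁻¹ * A * B, by simpa [mem_cW, mul_assoc] using hA, by rw [ap_mul, ap_mul, e1, ap_smul, ap_inv],
      (dt_conj A B).trans e2⟩

theorem Emb.conj {t : Hs (ZMod p) →* G} {H : Subgroup G} (h : Emb t H) (B : GL (Fin 2) (ZMod p)) :
    Emb (t.comp (act B).toMonoidHom) H := ⟨h.fin, h.inj.comp (act B).injective, fun _ => h.mem _, h.syl⟩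

theorem WG_conj (t : Hs (ZMod p) →* G) (H : Subgroup G) (B : GL (Fin 2) (ZMod p)) :
    WG (t.comp (act B).toMonoidHom) H = cW B (WG t H) := by
  ext A
  refine exists_congr fun g => and_congr_right fun _ => ⟨fun e x => ?_, fun e x => ?_⟩
  · have : g * t (act B ((act B)⁻¹ x)) * g⁻¹ = t (act B (act A ((act B)⁻¹ x))) := e ((act B)⁻¹ x)
    rw [MulAut.apply_inv_self] at this
    rw [this, MulEquiv.coe_toMonoidHom, MulAut.conj_apply, map_mul, map_mul, map_inv]; rfl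
  · have := e (act B x)
    rw [MulEquiv.coe_toMonoidHom, MulAut.conj_apply, map_mul (act), map_mul (act), map_inv (act), MulAut.mul_apply,
      MulAut.mul_apply, MulAut.inv_apply_self] at this
    exact this

theorem RG_conj (t : Hs (ZMod p) →* G) (H : Subgroup G) (B : GL (Fin 2) (ZMod p)) :
    RG (t.comp (act B).toMonoidHom) H = cR B (RG t H) := by
  ext v
  have e : ∀ v c, (t.comp (act B).toMonoidHom) (el v c) = t (el (ap B v) (dt B * c)) := fun _ _ => rfl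
  simp only [RG, mem_cR, Set.mem_setOf_eq, e, ap_zero]
  refine ⟨fun ⟨a, c, c', k⟩ => ⟨ap_ne B a, _, _, k⟩, fun ⟨a, c, c', k⟩ =>
    ⟨fun e => a (by rw [e, ap_zero]), (dt B)⁻¹ * c, (dt B)⁻¹ * c', ?_⟩⟩
  simpa only [mul_inv_cancel_left₀ (dt_ne B)] using k

theorem Rz.conj (h : Rz W R) (B : GL (Fin 2) (ZMod p)) : Rz (cW B W) (cR B R) := by
  obtain ⟨G, _, t, H, e, rfl, rfl⟩ := h
  exact ⟨G, _, _, H, e.conj B, WG_conj t H B, RG_conj t H B⟩

theorem Rz.of_conj {B : GL (Fin 2) (ZMod p)} (h : Rz (cW B W) (cR B R)) : Rz W R := by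
  simpa only [cW_inv, cR_inv] using h.conj B⁻¹

theorem Three.conj (h : Three R) (B : GL (Fin 2) (ZMod p)) : Three (cR B R) := by
  obtain ⟨u, hu, v, hv, w, hw, a, b, c⟩ := h
  have k : ∀ x y : ZMod p × ZMod p, x.1 * y.2 ≠ x.2 * y.1 →
      (ap B⁻¹ x).1 * (ap B⁻¹ y).2 ≠ (ap B⁻¹ x).2 * (ap B⁻¹ y).1 := fun x y n e => n (by
    have : dt B⁻¹ * (x.1 * y.2 - x.2 * y.1) = 0 := by
      simp only [ap] at e
      rw [dt]; linear_combination e
    exact sub_eq_zero.1 ((mul_eq_zero.1 this).resolve_left (dt_ne _)))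
  exact ⟨_, by rwa [mem_cR, ap_inv'], _, by rwa [mem_cR, ap_inv'], _, by rwa [mem_cR, ap_inv'], k _ _ a, k _ _ b, k _ _ c⟩

/-- a witness gives a realized pair with three lines -/
theorem Wit.rz (h : Wit p) (hp : p ≠ 2) :
    ∃ (W : Subgroup (GL (Fin 2) (ZMod p))) (R : Set (ZMod p × ZMod p)), Rz W R ∧ Three R := by
  obtain ⟨G, _, _, a, b, c, T, s, ⟨g1, n1, e1⟩, ⟨g2, n2, e2⟩, i, j, k, hi, hj, g3, n3, e3⟩ := h
  obtain ⟨t, t1, t2⟩ := T.exists_hom hp
  have z : ∀ n : ℤ, c ^ n = t (el 0 (n : ZMod p)) := fun n => by simpa [el] using (t2 0 0 n).symm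
  refine ⟨_, _, ⟨G, _, t, ⊤, ⟨inferInstance, t1, fun _ => trivial, by rwa [card_top]⟩, rfl, rfl⟩,
    (1, 0), ⟨by simp, 0, n1, g1, trivial, ?_⟩, (0, 1), ⟨by simp, 0, n2, g2, trivial, ?_⟩,
    ((i : ZMod p), (j : ZMod p)), ⟨fun e => hi ((ZMod.natCast_eq_zero_iff i p).1 (congrArg Prod.fst e)),
      ((k + i * j : ℤ) : ZMod p), n3, g3, trivial, ?_⟩, by simp, ?_, ?_⟩
  · rw [← z]; simpa [el] using (congrArg (g1 * · * g1⁻¹) (by simpa using t2 1 0 0)).trans e1.symm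
  · rw [← z]; simpa [el] using (congrArg (g2 * · * g2⁻¹) (by simpa using t2 0 1 0)).trans e2.symm
  · rw [← z]
    have := t2 i j (k + i * j)
    simp only [add_sub_cancel_right, zpow_natCast, Int.cast_natCast] at this
    exact (congrArg (g3 * · * g3⁻¹) this).trans e3.symm
  · simpa using fun e => hj ((ZMod.natCast_eq_zero_iff j p).1 e)
  · simpa using fun e => hi ((ZMod.natCast_eq_zero_iff i p).1 e.symm)

/-- the two coordinate axes -/
def axes (p : ℕ) : Set (ZMod p × ZMod p) := {v | v ≠ 0 ∧ (v.1 = 0 ∨ v.2 = 0)}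

/-- the four groups that go with two essential lines -/
def Wst (full sw : Prop) (A : GL (Fin 2) (ZMod p)) : Prop :=
  (A 0 1 = 0 ∧ A 1 0 = 0 ∧ (full ∨ ∃ κ, A 1 1 = A 0 0 * κ ^ 3)) ∨
    (sw ∧ A 0 0 = 0 ∧ A 1 1 = 0 ∧ (full ∨ ∃ κ, A 1 0 = A 0 1 * κ ^ 3))

/-- there is an element of order eight (for `p = 3`) -/
def Big (W : Subgroup (GL (Fin 2) (ZMod p))) : Prop := ∃ A ∈ W, A ^ 4 ≠ 1

theorem Big.conj (h : Big W) (B : GL (Fin 2) (ZMod p)) : Big (cW B W) := by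
  obtain ⟨A, hA, n⟩ := h
  refine ⟨B⁻¹ * A * B, by simpa [mem_cW, mul_assoc] using hA, fun e => n ?_⟩
  have : (B⁻¹ * A * B⁻¹⁻¹) ^ 4 = 1 := by rwa [inv_inv]
  rwa [conj_pow, conj_eq_one_iff] at this

theorem big_conj (B : GL (Fin 2) (ZMod p)) : Big (cW B W) ↔ Big W :=
  ⟨fun h => cW_inv (W := W) B ▸ h.conj B⁻¹, fun h => h.conj B⟩

end CF.RV
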