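import Cfsg.Agent.RV.Hom
import Mathlib.GroupTheory.SemidirectProduct
import Mathlib.LinearAlgebra.Matrix.GeneralLinearGroup.Card

/-! The fusion systems with two essential lines are realized inside `GL₃(p)` extended by a graph automorphism. -/

set_option autoImplicit false
set_option linter.unusedSectionVars false

namespace CF.RV

namespace Lw

open Matrix Subgroup

variable {K : Type} [Field K]

/-- transposition along the second diagonal -/
def sg (M : Matrix (Fin 3) (Fin 3) K) : Matrix (Fin 3) (Fin 3) K := Mᵀ.submatrix Fin.revPerm Fin.revPerm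

theorem sg_mul (M N : Matrix (Fin 3) (Fin 3) K) : sg (M * N) = sg N * sg M := by
  rw [sg, sg, sg, submatrix_mul_equiv, transpose_mul]

theorem sg_one : sg (1 : Matrix (Fin 3) (Fin 3) K) = 1 := by rw [sg, transpose_one, submatrix_one_equiv]

theorem sg_sg (M : Matrix (Fin 3) (Fin 3) K) : sg (sg M) = M := by ext i j; simp [sg]

theorem det_sg (M : Matrix (Fin 3) (Fin 3) K) : (sg M).det = M.det := by
  rw [sg, det_submatrix_equiv_self, det_transpose]

/-- the graph automorphism as a map -/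
def thF (g : GL (Fin 3) K) : GL (Fin 3) K :=
  ⟨sg (g⁻¹).1, sg g.1, by rw [← sg_mul, Units.mul_inv, sg_one], by rw [← sg_mul, Units.inv_mul, sg_one]⟩

theorem thF_thF (g : GL (Fin 3) K) : thF (thF g) = g := Units.ext (sg_sg _)

/-- the graph automorphism -/
def th : MulAut (GL (Fin 3) K) :=
  ⟨⟨thF, thF, thF_thF, thF_thF⟩, fun g h => Units.ext (by
    show sg ((g * h)⁻¹).1 = sg _ * sg _
    rw [_root_.mul_inv_rev, Units.val_mul, sg_mul])⟩

/-- the action of the group of order two -/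
def ph : ℤˣ →* MulAut (GL (Fin 3) K) where
  toFun s := if s = 1 then 1 else th
  map_one' := if_pos rfl
  map_mul' s t := by
    have : (th : MulAut (GL (Fin 3) K)) * th = 1 := MulEquiv.ext thF_thF
    rcases Int.units_eq_one_or s with rfl | rfl <;> rcases Int.units_eq_one_or t with rfl | rfl <;> simp [this]

theorem ph_neg : (ph (-1) : MulAut (GL (Fin 3) K)) = th := by
  rw [ph, MonoidHom.coe_mk, OneHom.coe_mk, if_neg (by decide)]

theorem det_ph (s : ℤˣ) {g : GL (Fin 3) K} (h : g.1.det = 1) : (ph s g).1.det = 1 := by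
  rcases Int.units_eq_one_or s with rfl | rfl
  · rwa [map_one]
  · rw [ph_neg]
    show (sg _).det = 1
    rw [det_sg, ← mul_one (det _), ← h, ← det_mul, Units.inv_mul, h, det_one]

/-- the unitriangular matrices -/
def tM (x : Hs K) : Matrix (Fin 3) (Fin 3) K := !![1, x.a, 2⁻¹ * (x.c + x.a * x.b); 0, 1, x.b; 0, 0, 1]

/-- the swap of the axes -/
def sw0 : GL (Fin 2) K := ⟨!![0, -1; -1, 0], !![0, -1; -1, 0], by simp [one_fin_two], by simp [one_fin_two]⟩

theorem tM_mul (h2 : (2 : K) ≠ 0) (x y : Hs K) : tM (x * y) = tM x * tM y := by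
  ext i j; fin_cases i <;> fin_cases j <;> simp [tM, mul_apply, Fin.sum_univ_three, add_comm]
  field_simp; ring

/-- the embedding of the Heisenberg group -/
def tG (h2 : (2 : K) ≠ 0) : Hs K →* GL (Fin 3) K := MonoidHom.toHomUnits
  { toFun := tM
    map_one' := by ext i j; fin_cases i <;> fin_cases j <;> simp [tM]
    map_mul' := tM_mul h2 }

variable (h2 : (2 : K) ≠ 0)

theorem tG_val (x : Hs K) : (tG h2 x).1 = tM x := rfl

theorem tG_inj : Function.Injective (tG h2) := (injective_iff_map_eq_one _).2 fun x e => by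
  have e : tM x = 1 := congrArg Units.val e
  have a : x.a = 0 := by simpa [tM] using congrFun (congrFun e 0) 1
  have b : x.b = 0 := by simpa [tM] using congrFun (congrFun e 1) 2
  have c : x.c = 0 := by simpa [tM, a, h2] using congrFun (congrFun e 0) 2
  ext <;> simp [a, b, c]

theorem th_tG (x : Hs K) : th (tG h2 x) = tG h2 (act sw0 x) := Units.ext (by
  show sg ((tG h2 x)⁻¹).1 = tM _
  rw [← map_inv, tG_val]
  ext i j; fin_cases i <;> fin_cases j <;> simp [sg, tM, act, actF, el, ap, dt, sw0, Fin.rev, mul_comm])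

/-- the matrix by which the group of order two acts -/
def sA (s : ℤˣ) : GL (Fin 2) K := if s = 1 then 1 else sw0

theorem ph_tG (s : ℤˣ) (x : Hs K) : ph s (tG h2 x) = tG h2 (act (sA s) x) := by
  rcases Int.units_eq_one_or s with rfl | rfl
  · simp [sA]
  · rw [ph_neg, th_tG, sA, if_neg (by decide)]

theorem norm_diag {g : GL (Fin 3) K} {B : GL (Fin 2) K} (h : ∀ x, g * tG h2 x * g⁻¹ = tG h2 (act B x)) :
    B 0 1 = 0 ∧ B 1 0 = 0 ∧ (g.1.det = 1 → B 1 1 = B 0 0 * g 1 1 ^ 3) := by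
  have k : ∀ x i j, (g.1 * tM x) i j = (tM (act B x) * g.1) i j := fun x i j =>
    by rw [show g.1 * tM x = tM (act B x) * g.1 from congrArg Units.val (mul_inv_eq_iff_eq_mul.1 (h x))]
  simp only [tM, act, actF, el, ap, mul_apply, Fin.sum_univ_three, MonoidHom.coe_mk, OneHom.coe_mk,
    MulEquiv.coe_mk, Equiv.coe_fn_mk] at k
  have g10 : g 1 0 = 0 := by simpa [h2] using k ⟨0, 0, 1⟩ 1 2
  have g20 : g 2 0 = 0 := by simpa [h2] using k ⟨0, 0, 1⟩ 2 2
  have g21 : g 2 1 = 0 := by simpa using k ⟨0, 1, 0⟩ 2 2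
  have d : g.1.det = g 0 0 * g 1 1 * g 2 2 := by simp [det_fin_three, g10, g20, g21]
  have n := g.det_ne_zero
  rw [d] at n ⊢
  have n1 : g 1 1 ≠ 0 := fun e => n (by simp [e])
  have n2 : g 2 2 ≠ 0 := fun e => n (by simp [e])
  have a : g 0 0 = B 0 0 * g 1 1 := add_left_cancel ((add_comm _ _).trans (by simpa [g21] using k ⟨1, 0, 0⟩ 0 1))
  have b : g 1 1 = B 1 1 * g 2 2 := add_left_cancel ((add_comm _ _).trans (by simpa using k ⟨0, 1, 0⟩ 1 2))
  refine ⟨by simpa [g21, n1] using k ⟨0, 1, 0⟩ 0 1, by simpa [g10, n2] using k ⟨1, 0, 0⟩ 1 2, fun e => ?_⟩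
  refine mul_right_cancel₀ n2 ?_
  linear_combination -b - g 1 1 * e + g 1 1 ^ 2 * g 2 2 * a

/-- diagonal matrices -/
def dG (x y z : Kˣ) : GL (Fin 3) K :=
  ⟨diagonal ![x, y, z], diagonal ![↑x⁻¹, ↑y⁻¹, ↑z⁻¹], by
    rw [diagonal_mul_diagonal, ← diagonal_one]; congr 1; ext i; fin_cases i <;> simp, by
    rw [diagonal_mul_diagonal, ← diagonal_one]; congr 1; ext i; fin_cases i <;> simp⟩

theorem dG_conj {x y z : Kˣ} {B : GL (Fin 2) K} (h1 : B 0 1 = 0) (h1' : B 1 0 = 0) (a : B 0 0 * y = x)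
    (b : B 1 1 * z = y) (u : Hs K) : dG x y z * tG h2 u * (dG x y z)⁻¹ = tG h2 (act B u) :=
  mul_inv_eq_iff_eq_mul.2 (Units.ext (by
    show diagonal _ * tM u = tM _ * diagonal _
    ext i j
    fin_cases i <;> fin_cases j <;> simp [tM, act, actF, el, ap, dt, h1, h1', ← a, ← b] <;> ring))

theorem exists_diag {full : Prop} {B : GL (Fin 2) K} (h1 : B 0 1 = 0) (h1' : B 1 0 = 0)
    (h : full ∨ ∃ κ, B 1 1 = B 0 0 * κ ^ 3) :
    ∃ g : GL (Fin 3) K, (full ∨ g.1.det = 1) ∧ ∀ u, g * tG h2 u * g⁻¹ = tG h2 (act B u) := by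
  have n := B.det_ne_zero
  rw [det_fin_two, h1, zero_mul, sub_zero] at n
  have n0 := left_ne_zero_of_mul n
  have n1 := right_ne_zero_of_mul n
  rcases h with h | ⟨κ, e⟩
  · exact ⟨dG (.mk0 _ n0) 1 (Units.mk0 _ n1)⁻¹, .inl h, dG_conj h2 h1 h1' (by simp) (by simp [n1])⟩
  have k : κ ≠ 0 := fun k => n1 (by simp [e, k])
  refine ⟨dG (.mk0 _ (mul_ne_zero n0 k)) (.mk0 _ k) (Units.mk0 _ (mul_ne_zero n0 (pow_ne_zero 2 k)))⁻¹, .inr ?_,
    dG_conj h2 h1 h1' (by simp) (by simp [e]; field_simp)⟩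
  simp [dG, Fin.prod_univ_three]; field_simp

theorem ab_zero {g : GL (Fin 3) K} {x : Hs K} {c : K} (h : g * tG h2 x * g⁻¹ = tG h2 (el 0 c)) : x.a * x.b = 0 := by
  have e : tM x = (g⁻¹).1 * tM (el 0 c) * g.1 :=
    congrArg Units.val (show tG h2 x = g⁻¹ * tG h2 (el 0 c) * g by rw [← h]; group)
  have z : (tM (el 0 c) - 1) * (tM (el 0 c) - 1) = 0 := by
    ext i j; fin_cases i <;> fin_cases j <;> simp [tM, el, mul_apply, Fin.sum_univ_three]
  have e' : tM x - 1 = (g⁻¹).1 * (tM (el 0 c) - 1) * g.1 := by rw [mul_sub, sub_mul, mul_one, Units.inv_mul, e]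
  have : (tM x - 1) * (tM x - 1) = 0 := by
    rw [e', mul_assoc, mul_assoc, ← mul_assoc g.1, ← mul_assoc g.1, Units.mul_inv, one_mul, ← mul_assoc (_ - _), z]
    simp
  simpa [tM, mul_apply, Fin.sum_univ_three] using congrFun (congrFun this 0) 2

theorem exists_ax {v : K × K} (h : v.1 = 0 ∨ v.2 = 0) :
    ∃ c, ∃ g : GL (Fin 3) K, g.1.det = 1 ∧ g * tG h2 (el v 0) * g⁻¹ = tG h2 (el 0 c) := by
  rcases h with h | h
  · refine ⟨2 * v.2, .mkOfDetNeZero !![0, 1, 0; -1, 0, 0; 0, 0, 1] (by simp [det_fin_three]), by simp [det_fin_three],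
      mul_inv_eq_iff_eq_mul.2 (Units.ext ?_)⟩
    show _ * tM _ = tM _ * _
    ext i j; fin_cases i <;> fin_cases j <;> simp [tM, el, h, h2, mul_apply, Fin.sum_univ_three]
  · refine ⟨2 * v.1, .mkOfDetNeZero !![1, 0, 0; 0, 0, -1; 0, 1, 0] (by simp [det_fin_three]), by simp [det_fin_three],
      mul_inv_eq_iff_eq_mul.2 (Units.ext ?_)⟩
    show _ * tM _ = tM _ * _
    ext i j; fin_cases i <;> fin_cases j <;> simp [tM, el, h, h2, mul_apply, Fin.sum_univ_three]

/-- the extended group -/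
abbrev GG (K : Type) [Field K] : Type := GL (Fin 3) K ⋊[ph] ℤˣ

/-- the four subgroups -/
def HH (K : Type) [Field K] (full sw : Prop) : Subgroup (GG K) where
  carrier := {g | (full ∨ g.left.1.det = 1) ∧ (sw ∨ g.right = 1)}
  one_mem' := ⟨.inr det_one, .inr rfl⟩
  mul_mem' := by
    rintro g k ⟨a, b⟩ ⟨c, d⟩
    refine ⟨a.elim .inl fun a => c.imp_right fun c => ?_, b.elim .inl fun b => d.imp_right fun d => ?_⟩
    · rw [SemidirectProduct.mul_left, Units.val_mul, det_mul, a, det_ph _ c, one_mul]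
    · rw [SemidirectProduct.mul_right, b, d, one_mul]
  inv_mem' := by
    rintro g ⟨a, b⟩
    refine ⟨a.imp_right fun a => ?_, b.imp_right fun b => ?_⟩
    · rw [SemidirectProduct.inv_left]
      exact det_ph _ (by rw [← mul_one (det _), ← a, ← det_mul, Units.inv_mul, a, det_one])
    · rw [SemidirectProduct.inv_right, b, inv_one]

theorem conj_inl (g : GG K) (u : GL (Fin 3) K) :
    g * .inl u * g⁻¹ = .inl (g.left * ph g.right u * g.left⁻¹) := by
  conv_lhs => rw [← SemidirectProduct.inl_left_mul_inr_right g]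
  rw [map_mul, map_mul, map_inv, SemidirectProduct.inl_aut, map_inv]; group

theorem conj_iff {g : GG K} {x y : Hs K} :
    g * (SemidirectProduct.inl.comp (tG h2)) x * g⁻¹ = (SemidirectProduct.inl.comp (tG h2) : _ →* GG K) y ↔
      g.left * tG h2 (act (sA g.right) x) * g.left⁻¹ = tG h2 y := by
  rw [MonoidHom.comp_apply, MonoidHom.comp_apply, conj_inl, ph_tG, SemidirectProduct.inl_inj]

end Lw

open Lw Matrix

variable {p : ℕ} [Fact p.Prime]

theorem Lw.card_GG (hp : p ≠ 2) : Finite (GG (ZMod p)) ∧ ¬ p ^ 4 ∣ Nat.card (GG (ZMod p)) := by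
  have P : p.Prime := Fact.out
  refine ⟨Finite.of_equiv _ SemidirectProduct.equivProd.symm, fun h => ?_⟩
  rw [SemidirectProduct.card, card_GL_field, Fin.prod_univ_three, ZMod.card, Nat.card_eq_fintype_card,
    Fintype.card_units_int] at h
  have q : ∀ n, 0 < n → ¬ p ∣ p ^ n - 1 := fun n hn k => P.one_lt.ne' (Nat.dvd_one.1
    ((Nat.dvd_sub_iff_right (Nat.one_le_pow _ _ P.pos) (dvd_pow_self p hn.ne')).1 k))
  have e : (p ^ 3 - p ^ ((0 : Fin 3) : ℕ)) * (p ^ 3 - p ^ ((1 : Fin 3) : ℕ)) * (p ^ 3 - p ^ ((2 : Fin 3) : ℕ)) * 2 =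
      p ^ 3 * ((p ^ 3 - 1) * (p ^ 2 - 1) * (p ^ 1 - 1) * 2) := by
    rw [show p ^ 3 - p ^ ((1 : Fin 3) : ℕ) = p * (p ^ 2 - 1) by simp [Nat.mul_sub, pow_succ'],
      show p ^ 3 - p ^ ((2 : Fin 3) : ℕ) = p ^ 2 * (p ^ 1 - 1) by simp [Nat.mul_sub, pow_succ]]
    simp; ring
  rw [e, pow_succ, Nat.mul_dvd_mul_iff_left (pow_pos P.pos 3), P.dvd_mul, P.dvd_mul, P.dvd_mul] at h
  rcases h with ((h | h) | h) | h
  exacts [q 3 (by decide) h, q 2 (by decide) h, q 1 (by decide) h, hp ((Nat.prime_dvd_prime_iff_eq P Nat.prime_two).1 h)]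

theorem rz_two (hp : p ≠ 2) (full sw : Prop) :
    ∃ W : Subgroup (GL (Fin 2) (ZMod p)), Rz W (axes p) ∧ ∀ A, A ∈ W ↔ Wst full sw A := by
  have h2 : (2 : ZMod p) ≠ 0 := fun e => hp ((Nat.prime_dvd_prime_iff_eq Fact.out Nat.prime_two).1
    ((ZMod.natCast_eq_zero_iff 2 p).1 e))
  obtain ⟨f, c⟩ := card_GG hp
  refine ⟨_, ⟨GG (ZMod p), inferInstance, SemidirectProduct.inl.comp (tG h2), HH _ full sw,
    ⟨inferInstance, SemidirectProduct.inl_injective.comp (tG_inj h2),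
      fun x => ⟨.inr (by simp [tG_val, tM, det_fin_three]), .inr rfl⟩,
      fun k => c (k.trans (Subgroup.card_subgroup_dvd_card _))⟩, rfl, Set.ext fun v => and_congr_right fun _ => ?_⟩,
    fun A => ⟨?_, ?_⟩⟩
  · refine ⟨fun ⟨_, _, g, _, e⟩ => ?_, fun h => ?_⟩
    · have := ab_zero h2 ((conj_iff h2).1 e)
      rcases Int.units_eq_one_or g.right with k | k <;> rw [k] at this
      · simpa [sA, el] using this
      · rw [act_el] at this
        simpa [sA, el, ap, sw0, or_comm] using this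
    · obtain ⟨c, g, d, e⟩ := exists_ax h2 h
      exact ⟨0, c, .inl g, ⟨.inr d, .inr rfl⟩, (conj_iff h2).2 (by simpa [sA] using e)⟩
  · rintro ⟨g, ⟨a, b⟩, e⟩
    obtain ⟨k1, k2, k3⟩ := norm_diag h2 (g := g.left) (B := A * (sA g.right)⁻¹) fun x => by
      simpa using (conj_iff h2).1 (e (act (sA g.right)⁻¹ x))
    rcases Int.units_eq_one_or g.right with k | k <;> rw [k] at b k1 k2 k3
    · exact .inl ⟨by simpa [sA] using k1, by simpa [sA] using k2, a.imp_right fun a => ⟨_, by simpa [sA] using k3 a⟩⟩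
    · have q : ∀ i j, (A * (sA (-1))⁻¹ : GL (Fin 2) (ZMod p)) i j = -A i j.rev := fun i j => by
        rw [sA, if_neg (by decide)]
        fin_cases j <;> simp [sw0, mul_apply, Fin.rev]
      simp only [q] at k1 k2 k3
      exact .inr ⟨b.resolve_right (by decide), neg_eq_zero.1 k1, neg_eq_zero.1 k2,
        a.imp_right fun a => ⟨_, neg_injective ((k3 a).trans (neg_mul _ _))⟩⟩
  · rintro (⟨k1, k2, k3⟩ | ⟨s, k1, k2, k3⟩)
    · obtain ⟨g, d, e⟩ := exists_diag h2 k1 k2 k3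
      exact ⟨.inl g, ⟨d, .inr rfl⟩, fun x => (conj_iff h2).2 (by simpa [sA] using e x)⟩
    · have q : ∀ i j, (A * sw0⁻¹ : GL (Fin 2) (ZMod p)) i j = -A i j.rev := fun i j => by
        fin_cases j <;> simp [sw0, mul_apply, Fin.rev]
      obtain ⟨g, d, e⟩ := exists_diag h2 (full := full) (B := A * sw0⁻¹) ((q 0 1).trans (neg_eq_zero.2 k1))
        ((q 1 0).trans (neg_eq_zero.2 k2)) (k3.imp_right (.imp fun κ k => by
          rw [q, q, neg_mul]; exact congrArg _ k))
      exact ⟨⟨g, -1⟩, ⟨d, .inl s⟩, fun x => (conj_iff h2).2 (by simpa [sA] using e (act sw0 x))⟩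

end CF.RV
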