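import Cfsg.Agent.RV.MC
import Cfsg.Agent.RV.Hom
import Cfsg.Agent.Mon.Covers

/-! The Monster has three classes of lines in its Sylow `13`-subgroup fused to the centre. -/

set_option autoImplicit false
set_option maxRecDepth 100000

namespace CF.RV.M

open CF.Comp CF.Mon CF.Mon.Tr Subgroup

/-- the relations -/
def rels : List (List ℕ) := [[2, 3, 1, 3, 2, 4, 1, 4], [2, 3, 1, 5, 2, 3, 1, 5, 2, 3, 1, 5, 3, 3, 3],
  [2, 3, 1, 5, 2, 3, 1, 6, 2, 4, 1, 5, 2, 4, 1, 6, 3, 3, 3, 3, 3, 3], [3, 3, 3, 3, 3, 3, 3, 3, 3, 3, 3, 3, 3],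
  [5, 5, 5], [3, 5, 4, 6]]

theorem wit_of {G : Type} [Group G] [Finite G] (s : ¬ 13 ^ 4 ∣ Nat.card G) {g x ω : G} (n : x ≠ 1)
    (r0 : g⁻¹ * x * g * x * (g⁻¹ * x * g)⁻¹ * x⁻¹ = 1) (r1 : (g⁻¹ * x * g * ω) ^ 3 * x ^ 3 = 1)
    (r2 : g⁻¹ * x * g * (ω * (g⁻¹ * x * g) * ω⁻¹) * (g⁻¹ * x * g)⁻¹ * (ω * (g⁻¹ * x * g) * ω⁻¹)⁻¹ * x ^ 6 = 1)
    (r3 : x ^ 13 = 1) (r4 : ω ^ 3 = 1) (r5 : x * ω * x⁻¹ * ω⁻¹ = 1) : Wit 13 := by
  have k : g * (g⁻¹ * x * g) * g⁻¹ = x := by group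
  have pa : (g⁻¹ * x * g) ^ 13 = 1 := by
    have := conj_pow (a := g⁻¹) (b := x) (i := 13)
    rw [inv_inv] at this
    rw [this, r3]; simp
  generalize g⁻¹ * x * g = a at *
  have c1 : Commute x a := (commutatorElement_eq_one_iff_commute.1 r0).symm
  have c2 : Commute x ω := commutatorElement_eq_one_iff_commute.1 r5
  have c3 : Commute x (ω * a * ω⁻¹) := (c2.mul_right c1).mul_right c2.inv_right
  have e4 : (x ^ 10) ^ 4 = x := by
    rw [← pow_mul, show 10 * 4 = 13 * 3 + 1 from rfl, pow_succ, pow_mul, r3]; simp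
  have m : x ∈ zpowers (x ^ 10) := by
    have := pow_mem (mem_zpowers (x ^ 10)) 4
    rwa [e4] at this
  refine ⟨G, _, inferInstance, a, ω * a * ω⁻¹, x ^ 10, ⟨pa, by rw [conj_pow, pa]; simp,
    by rw [← pow_mul, mul_comm, pow_mul, r3, one_pow], fun e => n (by rw [← e4, e, one_pow]), c1.pow_left _,
    c3.pow_left _, ?_⟩, s, ⟨g, k.symm ▸ m⟩, ⟨g * ω⁻¹, ?_⟩, 1, 1, 12, by norm_num, by norm_num, g * ω⁻¹ * ω⁻¹, ?_⟩
  · generalize ω * a * ω⁻¹ = b at *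
    have e : x ^ 6 * (x ^ 10) ^ 2 = 1 := by
      rw [← pow_mul, ← pow_add, show 6 + 10 * 2 = 13 * 2 from rfl, pow_mul, r3, one_pow]
    have e' : a * b * a⁻¹ * b⁻¹ = (x ^ 10) ^ 2 :=
      (eq_inv_of_mul_eq_one_left r2).trans (eq_inv_of_mul_eq_one_right e).symm
    have cc : Commute ((x ^ 10) ^ 2) (b * a) := ((c3.mul_right c1).pow_left _).pow_left _
    rw [← cc.eq, ← e']; group
  · rwa [show g * ω⁻¹ * (ω * a * ω⁻¹) * (g * ω⁻¹)⁻¹ = g * a * g⁻¹ by group, k]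
  · have e : (x ^ 10) ^ 12 = x ^ 3 := by
      rw [← pow_mul, show 10 * 12 = 13 * 9 + 3 from rfl, pow_add, pow_mul, r3]; simp
    have i : ω⁻¹ * ω⁻¹ = ω := by rw [← mul_inv_rev, inv_eq_iff_mul_eq_one, ← pow_three', r4]
    have e2 : a * (ω * a * ω⁻¹) * x ^ 3 = ω * ω * a⁻¹ * ω⁻¹ * ω⁻¹ := by
      have cc : Commute (x ^ 3) (ω * ω * a * ω⁻¹ * ω⁻¹) :=
        ((((c2.mul_right c2).mul_right c1).mul_right c2.inv_right).mul_right c2.inv_right).pow_left _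
      calc _ = a * (ω * a * ω⁻¹) * (x ^ 3 * (ω * ω * a * ω⁻¹ * ω⁻¹)) * (ω * ω * a⁻¹ * ω⁻¹ * ω⁻¹) := by group
        _ = a * ω * a * ω * a * (ω⁻¹ * ω⁻¹) * x ^ 3 * (ω * ω * a⁻¹ * ω⁻¹ * ω⁻¹) := by rw [cc.eq]; group
        _ = (a * ω) ^ 3 * x ^ 3 * (ω * ω * a⁻¹ * ω⁻¹ * ω⁻¹) := by
          rw [i, pow_three' (a * ω)]; simp only [mul_assoc]
        _ = _ := by rw [r1, one_mul]
    rw [pow_one, pow_one, e, e2, show g * ω⁻¹ * ω⁻¹ * (ω * ω * a⁻¹ * ω⁻¹ * ω⁻¹) * (g * ω⁻¹ * ω⁻¹)⁻¹ =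
      (g * a * g⁻¹)⁻¹ by group, k]
    exact inv_mem m

theorem wit13 : Wit 13 := by
  have h := G.outM
  have := h.finite
  have r := rels_of h rvT_base (P := rvP) (m := 3) (rels := rels) rfl rfl (by decide +kernel) rvI_chk
    (by decide +kernel) rvW_chk
  have n : gf rvT G.rhoM G.tauM rvP 1 ≠ 1 := fun e => by
    have e1 : G.rhoM (rvT.get 10).val = 1 := (one_mul _).symm.trans e
    have e2 := smul_of_evL (BT.all_get rvT_base.ok 10) (a := 12288) (b := 27146097) (by decide +kernel)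
    rw [(G.rho_comm_iff h.x_ne).1 (by rw [e1]; simp)] at e2
    revert e2
    simp only [Lab.ext_iff]
    decide +kernel
  generalize gf rvT G.rhoM G.tauM rvP = f at r n
  simp only [rels, List.forall_mem_cons, ev_cons, ev_nil, Comp.evL] at r
  norm_num at r
  obtain ⟨r0, r1, r2, r3, r4, r5⟩ := r
  refine wit_of (g := f 0) (x := f 1) (ω := f 2) (by rw [h.card]; norm_num) n ?_ ?_ ?_ ?_ ?_ ?_
  · rw [← r0]; group
  · rw [← r1]; simp only [pow_succ, pow_zero, one_mul, mul_assoc]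
  · rw [← r2]; simp only [pow_succ, pow_zero, one_mul, mul_assoc, mul_inv_rev, inv_inv]
  · rw [← r3]; simp only [pow_succ, pow_zero, one_mul, mul_assoc]
  · rw [← r4]; simp only [pow_succ, pow_zero, one_mul, mul_assoc]
  · rw [← r5]; simp only [mul_assoc]

end CF.RV.M
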