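import Cfsg.Agent.RV.MR0
import Cfsg.Agent.RV.MR1
import Cfsg.Agent.RV.MR2

set_option autoImplicit false
set_option maxRecDepth 100000

namespace CF.RV.M

open CF.Comp CF.Mon CF.Mon.Tr

noncomputable section

theorem rvci0 : Chk rvT rvwi0 := .inl ⟨rvci0_0, rvci0_1, rvci0_2, rvci0_3⟩
theorem rvcr0 : Chk rvT rvwr0 := .inl ⟨rvcr0_0, rvcr0_1, rvcr0_2, rvcr0_3⟩
theorem rvcr1 : Chk rvT rvwr1 := .inl ⟨rvcr1_0, rvcr1_1, rvcr1_2, rvcr1_3⟩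
theorem rvcr2 : Chk rvT rvwr2 := .inl ⟨rvcr2_0, rvcr2_1, rvcr2_2, rvcr2_3⟩

theorem rvI_chk : rvI.Forall (Chk rvT) := ⟨rvci0, rvci1, rvci2⟩

theorem rvW_chk : rvW.Forall (Chk rvT) := ⟨rvcr0, rvcr1, rvcr2, rvcr3, rvcr4, rvcr5⟩

end

end CF.RV.M
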