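import Cfsg.Agent.RV.Hom
import Cfsg.Agent.Dce.Th.Main

/-! The Thompson group realizes the fusion system with six essential lines over the extraspecial group of order `125`. -/

set_option autoImplicit false
set_option maxRecDepth 1000000
set_option Elab.async false

namespace CF.RV

open CF.Comp CF.Dce CF.Dce.Th Subgroup

namespace Tw

theorem conj_zp {G : Type*} [Group G] [Finite G] {p : ℕ} [Fact p.Prime] (h : ¬ p ^ 2 ∣ Nat.card G) {x y : G}
    (hx : x ^ p = 1) (hy : orderOf y = p) : ∃ g, g * x * g⁻¹ ∈ zpowers y := by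
  have k : ∀ {u : G}, u ^ p = 1 → IsPGroup p (zpowers u) := fun {u} e ⟨_, n, rfl⟩ =>
    ⟨1, Subtype.ext (show (u ^ n) ^ p ^ 1 = 1 by rw [pow_one, ← zpow_natCast, zpow_comm, zpow_natCast, e, one_zpow])⟩
  obtain ⟨P, hP⟩ := (k hx).exists_le_sylow
  obtain ⟨Q, hQ⟩ := (k (hy ▸ pow_orderOf_eq_one y)).exists_le_sylow
  obtain ⟨g, rfl⟩ := MulAction.exists_smul_eq G P Q
  refine ⟨g, (eq_of_le_of_card_ge hQ ?_).ge (smul_mem_pointwise_smul _ _ _ (hP (mem_zpowers x)))⟩
  obtain ⟨n, e⟩ := IsPGroup.iff_card.1 (g • P).2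
  have : n < 2 := not_le.1 fun l => h ((pow_dvd_pow p l).trans (e ▸ card_subgroup_dvd_card _))
  rw [Nat.card_zpowers, hy, e]
  exact (Nat.pow_le_pow_right (Fact.out : p.Prime).pos (Nat.le_of_lt_succ this)).trans_eq (pow_one p)

/-- an element that permutes three lines -/
noncomputable def om : List ℕ := [5, 7, 12, 9, 7, 11, 16, 12, 16, 7, 16, 11]

/-- equal words -/
noncomputable def eV : List (List ℕ × List ℕ) := [([33, 1], [1, 33]), ([29, 25, 1, 26], [25, 1, 26, 29]),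
  (om ++ [29], [31] ++ om), (om ++ [31], [29, 29, 29, 29, 31, 33, 33, 33] ++ om)]

theorem r5 : rn (fun E => lall (fun p => eq' E p.1 p.2) eV) = true := by decide +kernel

theorem eqv : ∀ p ∈ eV, ev F p.1 = ev F p.2 :=
  have ⟨_, T, h⟩ := tbl r5
  fun p hp => T.eqv _ _ (lall_iff.1 h p hp)

end Tw

open Tw

theorem wit5 : Wit 5 := by
  have := Fact.mk Nat.prime_five
  have h := eqv
  simp only [eV, List.forall_mem_cons, ev_append, ev_cons, ev_nil, mul_one, ← mul_assoc] at h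
  obtain ⟨h1, h2, h3, h4, -⟩ := h
  have k := eqs
  simp only [eW, List.forall_mem_cons, ev_wpow, ev_cons, ev_nil, mul_one, ← mul_assoc] at k
  obtain ⟨-, -, pa, pb, pc, cb, ca, ab, -⟩ := k
  have n := nes [33] (by decide +kernel)
  have z : evL F 1 = ev b [1] := (mul_one _).symm.trans (F_low (w := [1]) (by decide +kernel))
  rw [ev_cons, ev_nil, mul_one] at n
  rw [show evL F 26 = (evL F 25)⁻¹ from (evL_even F 12).trans (congrArg _ (evL_odd F 12).symm), z] at h2
  rw [z] at h1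
  generalize evL F 25 = g, evL F 29 = a, evL F 31 = u, evL F 33 = c, ev F om = w at *
  have o : orderOf (c ^ 3) = 5 := by rw [orderOf_pow, orderOf_eq_prime pc n]; rfl
  obtain ⟨r, hr⟩ := conj_zp (G := centralizer {ev b [1]}) (p := 5) (by rw [cent_a, card_C]; decide)
    (x := ⟨g⁻¹ * a * g, mem_centralizer_singleton_iff.2 (by
      rw [← mul_left_cancel_iff (a := g), ← mul_right_cancel_iff (a := g⁻¹)]; simpa [mul_assoc] using h2)⟩)
    (y := ⟨c ^ 3, pow_mem (mem_centralizer_singleton_iff.2 h1) 3⟩)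
    (Subtype.ext (by simpa using (conj_pow (a := g⁻¹) (i := 5)).trans (by rw [pa]; simp)))
    ((orderOf_coe _).symm.trans o)
  obtain ⟨m, hm⟩ := hr
  have e : r.1 * g⁻¹ * a * (r.1 * g⁻¹)⁻¹ ∈ zpowers (c ^ 3) := ⟨m, by simpa [mul_assoc] using congrArg Subtype.val hm⟩
  have eu : u = w * a * w⁻¹ := eq_mul_inv_of_mul_eq h3.symm
  refine ⟨L, inferInstance, inferInstance, a, u, c ^ 3, ⟨pa, pb, o ▸ pow_orderOf_eq_one _, fun e => by simp [e] at o,
    Commute.pow_left ca.symm 3, Commute.pow_left cb.symm 3, ?_⟩, by rw [card_L]; decide, ⟨_, e⟩,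
    ⟨r.1 * g⁻¹ * w⁻¹, by simpa [eu, mul_assoc] using e⟩, 4, 1, 1, by decide, by decide, r.1 * g⁻¹ * w⁻¹ * w⁻¹, ?_⟩
  · rw [← pow_mul, show 3 * 2 = 5 + 1 from rfl, pow_succ, pc, one_mul, ab, ← cb, mul_assoc, ← ca, mul_assoc]
  · rw [show a ^ 4 * u ^ 1 * (c ^ 3) ^ 1 = w * u * w⁻¹ from eq_mul_inv_of_mul_eq (by
      rw [h4]; simp only [pow_succ, pow_zero, one_mul, mul_assoc])]
    simpa [eu, mul_assoc] using e

end CF.RV
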