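import Cfsg.Agent.RV.C3

/-! Groups with an extraspecial Sylow subgroup of order 27 all of whose elements are conjugate. -/

set_option autoImplicit false

namespace CF.RV

open Subgroup

theorem hs3_ext {G : Type*} [Group G] {s t : Hs (ZMod 3) →* G} (h1 : s ⟨1, 0, 0⟩ = t ⟨1, 0, 0⟩)
    (h2 : s ⟨0, 1, 0⟩ = t ⟨0, 1, 0⟩) : s = t := by
  have a : (⟨1, 0, 0⟩ : Hs (ZMod 3)) ∈ s.eqLocus t := h1
  have b : (⟨0, 1, 0⟩ : Hs (ZMod 3)) ∈ s.eqLocus t := h2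
  have c : (⟨0, 0, 1⟩ : Hs (ZMod 3)) ∈ s.eqLocus t := by
    have := mul_mem (mul_mem (mul_mem b a) (inv_mem b)) (inv_mem a)
    convert this using 1
    ext <;> decide
  refine MonoidHom.ext fun u => ?_
  have := mul_mem (mul_mem (pow_mem a u.a.val) (pow_mem b u.b.val)) (pow_mem c (u.c - u.a * u.b).val)
  convert this using 1
  have : (⟨1, 0, 0⟩ : Hs (ZMod 3)) ^ u.a.val * ⟨0, 1, 0⟩ ^ u.b.val * ⟨0, 0, 1⟩ ^ (u.c - u.a * u.b).val = u := by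
    ext <;> simp [pow_eq]
  rw [this]; rfl

section
variable {G : Type*} [Group G] {t : Hs (ZMod 3) →* G}

theorem mm_WG {g : G} (m : T4 (ZMod 3)) (d : m.1 * m.2.2.2 - m.2.1 * m.2.2.1 ≠ 0) (e1 : g * t ⟨1, 0, 0⟩ * g⁻¹ = t ⟨m.1, m.2.2.1, 0⟩)
    (e2 : g * t ⟨0, 1, 0⟩ * g⁻¹ = t ⟨m.2.1, m.2.2.2, 0⟩) : Mm (WG t ⊤) m := by
  refine ⟨gl m.1 m.2.1 m.2.2.1 m.2.2.2 d, ⟨g, trivial, fun x => ?_⟩, rfl⟩
  have := hs3_ext (s := (MulAut.conj g).toMonoidHom.comp t)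
    (t := t.comp (act (gl m.1 m.2.1 m.2.2.1 m.2.2.2 d)).toMonoidHom)
    (e1.trans (congrArg t (by
      show _ = act _ (el (1, 0) 0)
      rw [act_el, ap_gl]; simp [el])))
    (e2.trans (congrArg t (by
      show _ = act _ (el (0, 1) 0)
      rw [act_el, ap_gl]; simp [el])))
  exact DFunLike.congr_fun this x

theorem card_le_cent [Finite G] (i : Function.Injective t) {L : Finset (T4 (ZMod 3))}
    (h : ∀ m ∈ L, Mm (WG t ⊤) m ∧ td m = 1) : L.card * 27 ≤ Nat.card (centralizer {t ⟨0, 0, 1⟩}) := by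
  have k : ∀ m : L, ∃ g : G, ∀ x, g * t x * g⁻¹ = t (el (ta m (x.a, x.b)) x.c) := fun ⟨m, hm⟩ => by
    obtain ⟨⟨A, ⟨g, -, e⟩, rfl⟩, d⟩ := h m hm
    refine ⟨g, fun x => (e x).trans (congrArg t ?_)⟩
    show act A (el (x.a, x.b) x.c) = _
    rw [act_el, dt_tp, d, one_mul, ap_tp]
  choose g hg using k
  have e : ∀ (m : L) (s x : Hs (ZMod 3)), g m * t s * t x * (g m * t s)⁻¹ =
      t (el (ta m (x.a, x.b)) (s * x * s⁻¹).c) := fun m s x => by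
    have := hg m (s * x * s⁻¹)
    rw [map_mul, map_mul, map_inv] at this
    simpa [mul_assoc] using this
  let φ : L × Hs (ZMod 3) → centralizer {t ⟨0, 0, 1⟩} := fun x => ⟨g x.1 * t x.2, by
    rw [mem_centralizer_singleton_iff, ← mul_inv_eq_iff_eq_mul, e, conj_eq]
    simp [ta, el]⟩
  have inj : Function.Injective φ := by
    rintro ⟨m, s⟩ ⟨m', s'⟩ q
    have q : g m * t s = g m' * t s' := congrArg Subtype.val q
    have r : ∀ x : Hs (ZMod 3), ta m.1 (x.a, x.b) = ta m'.1 (x.a, x.b) := fun x => by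
      have := i ((e m s x).symm.trans (q ▸ e m' s' x))
      exact Prod.ext (congrArg Hs.a this) (congrArg Hs.b this)
    have r1 := r ⟨1, 0, 0⟩
    have r2 := r ⟨0, 1, 0⟩
    simp only [ta, mul_one, mul_zero, add_zero, zero_add, Prod.mk.injEq] at r1 r2
    obtain rfl : m = m' := Subtype.ext (Prod.ext r1.1 (Prod.ext r2.1 (Prod.ext r1.2 r2.2)))
    rw [i (mul_left_cancel q)]
  simpa [card_Hs] using Nat.card_le_card_of_injective φ inj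

set_option synthInstance.maxSize 1024 in
theorem fifth : ∀ m : T4 (ZMod 3), td m ≠ 0 → tm (tm m m) (tm m m) ≠ (1, 0, 0, 1) →
    ∃ m' ∈ [m, tm m (0, 1, 1, 0)], td m' = 1 ∧
      m' ∉ ({(1, 0, 0, 1), (0, 2, 1, 0), (2, 0, 0, 2), (0, 1, 2, 0)} : Finset (T4 (ZMod 3))) := by
  decide +kernel

theorem not_big [Finite G] (i : Function.Injective t) (hM : Mm (WG t ⊤) (0, 2, 1, 0)) (hN : Mm (WG t ⊤) (0, 1, 1, 0))
    (c : Nat.card (centralizer {t ⟨0, 0, 1⟩}) = 108) : ¬ Big (WG t ⊤) := by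
  rintro ⟨A, hA, n⟩
  obtain ⟨m, hm, d, o⟩ := fifth (tp A) (dt_ne A) (mt (tp_four A).2 n)
  have k : Mm (WG t ⊤) m := by
    simp only [List.mem_cons, List.not_mem_nil, or_false] at hm
    rcases hm with rfl | rfl
    exacts [mm_tp.2 hA, (mm_tp.2 hA).mul hN]
  have q : ∀ s ∈ ({(1, 0, 0, 1), (0, 2, 1, 0), (2, 0, 0, 2), (0, 1, 2, 0)} : Finset (T4 (ZMod 3))),
      (∃ w ∈ d8, ev (0, 2, 1, 0) (0, 2, 1, 0) w = s) ∧ td s = 1 := by decide +kernel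
  have := card_le_cent i (L := insert m {(1, 0, 0, 1), (0, 2, 1, 0), (2, 0, 0, 2), (0, 1, 2, 0)}) fun s hs => by
    rcases Finset.mem_insert.1 hs with rfl | hs
    · exact ⟨k, d⟩
    · obtain ⟨⟨w, -, e⟩, d'⟩ := q s hs
      exact ⟨e ▸ hM.ev hM w, d'⟩
  rw [Finset.card_insert_of_notMem o, c] at this
  exact absurd this (by decide +kernel)

theorem big_of (h : Mm (WG t ⊤) (0, 1, 1, 2)) : Big (WG t ⊤) := by
  obtain ⟨A, hA, e⟩ := h
  exact ⟨A, hA, by rw [Ne, tp_four, e]; decide +kernel⟩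

end

theorem Tri.emb {G : Type} [Group G] [Finite G] {a b c g1 g2 g3 : G} (T : Tri 3 a b c) (s : ¬ 3 ^ 4 ∣ Nat.card G)
    (e1 : g1 * a * g1⁻¹ = c) (e2 : g2 * b * g2⁻¹ = c) (e3 : g3 * (a * b) * g3⁻¹ = c) :
    ∃ t : Hs (ZMod 3) →* G, Function.Injective t ∧ t ⟨1, 0, 0⟩ = a ∧ t ⟨0, 1, 0⟩ = b ∧ t ⟨0, 0, 1⟩ = c ∧
      Rz (WG t ⊤) (RG t ⊤) ∧ Three (RG t ⊤) := by
  obtain ⟨t, t1, t2⟩ := T.exists_hom (by decide)
  have a' : t ⟨1, 0, 0⟩ = a := by simpa using t2 1 0 0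
  have b' : t ⟨0, 1, 0⟩ = b := by simpa using t2 0 1 0
  have c' : t ⟨0, 0, 1⟩ = c := by simpa using t2 0 0 1
  have d' : t ⟨1, 1, 1⟩ = a * b := by simpa using t2 1 1 1
  exact ⟨t, t1, a', b', c', ⟨G, _, t, ⊤, ⟨inferInstance, t1, fun _ => trivial, by rwa [card_top]⟩, rfl, rfl⟩,
    (1, 0), ⟨by simp, 0, 1, g1, trivial, (a' ▸ e1).trans c'.symm⟩, (0, 1), ⟨by simp, 0, 1, g2, trivial, (b' ▸ e2).trans c'.symm⟩,
    (1, 1), ⟨by simp, 1, 1, g3, trivial, (d' ▸ e3).trans c'.symm⟩, by decide, by decide, by decide⟩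

end CF.RV
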