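import Cfsg.Agent.RV.U1
import Cfsg.Agent.BN.TitsC
import Cfsg.Agent.Schur.Mdl

/-! The two realized pairs with four essential lines for `p = 3`: the Tits group and `²F₄(2)`. -/

set_option autoImplicit false
set_option maxRecDepth 1000000

namespace CF.RV

open CF.Comp CF.Bt CF.Schur.Pc Subgroup

/-- relations among words -/
noncomputable def triOK (same : List ℕ → List ℕ → Bool) (a b c g1 g2 g3 : List ℕ) : Bool :=
  lall (fun p : List ℕ × List ℕ => same p.1 p.2)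
    [(wpow a 3, []), (wpow b 3, []), (wpow c 3, []), (lapp c a, lapp a c), (lapp c b, lapp b c),
      (lapp a b, lapp (lapp b a) (wpow c 2)), (lapp (lapp g1 a) (winv g1), c), (lapp (lapp g2 b) (winv g2), c),
      (lapp (lapp g3 (lapp a b)) (winv g3), c)]

theorem tri_of {G : Type} [Group G] [Finite G] {f : ℕ → G} {same : List ℕ → List ℕ → Bool}
    (hs : ∀ u w, same u w = true → Comp.ev f u = Comp.ev f w) {a b c g1 g2 g3 : List ℕ}
    (h : triOK same a b c g1 g2 g3 = true) (n : Comp.ev f c ≠ Comp.ev f []) (s : ¬ 3 ^ 4 ∣ Nat.card G) :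
    ∃ t : Hs (ZMod 3) →* G, Function.Injective t ∧ t ⟨1, 0, 0⟩ = Comp.ev f a ∧ t ⟨0, 1, 0⟩ = Comp.ev f b ∧
      t ⟨0, 0, 1⟩ = Comp.ev f c ∧ Rz (WG t ⊤) (RG t ⊤) ∧ Three (RG t ⊤) := by
  simp only [triOK, lall_iff, List.forall_mem_cons] at h
  obtain ⟨h1, h2, h3, h4, h5, h6, h7, h8, h9, -⟩ := h
  have := And.intro (hs _ _ h1) <| And.intro (hs _ _ h2) <| And.intro (hs _ _ h3) <| And.intro (hs _ _ h4) <|
    And.intro (hs _ _ h5) <| And.intro (hs _ _ h6) <| And.intro (hs _ _ h7) <| And.intro (hs _ _ h8) (hs _ _ h9)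
  simp only [ev_wpow, ev_lapp, ev_winv, ev_nil] at this n
  obtain ⟨h1, h2, h3, h4, h5, h6, h7, h8, h9⟩ := this
  exact Tri.emb ⟨h1, h2, h3, n, h4, h5, h6⟩ s h7 h8 h9

theorem cj_of {G : Type} [Group G] {f : ℕ → G} {same : List ℕ → List ℕ → Bool}
    (hs : ∀ u w, same u w = true → Comp.ev f u = Comp.ev f w) {g u w : List ℕ}
    (h : same (lapp (lapp g u) (winv g)) w = true) : Comp.ev f g * Comp.ev f u * (Comp.ev f g)⁻¹ = Comp.ev f w := by
  simpa only [ev_lapp, ev_winv] using hs _ _ h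

open BN.TitsC in
theorem wit3a_of {G Ω : Type} [Group G] [MulAction G Ω] {D : Dom Ω 1755} {f : ℕ → G}
    (hE : Exact D (lapp X X1) f c ⊤) (hc : Nat.card G = 17971200) :
    ∃ (W : Subgroup (GL (Fin 2) (ZMod 3))) (R : Set (ZMod 3 × ZMod 3)), Rz W R ∧ Three R ∧ ¬ Big W := by
  have := Exact.finite_top hE
  have hs := (mdl_of_exact hE fun _ => trivial).sameB
  obtain ⟨t, i, a, b, z, r, k⟩ := tri_of hs (a := [37]) (b := [39, 37, 40]) (c := [35]) (g1 := [61, 50, 39])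
    (g2 := [49, 61]) (g3 := [42, 23, 47]) (by decide +kernel)
    (hE.reps.ne_of_sameW (k := 11) (by decide) (by decide +kernel)) (by rw [hc]; decide)
  refine ⟨_, _, r, k, not_big i (mm_WG (g := Comp.ev f [39, 37]) _ (by decide) ?_ ?_)
    (mm_WG (g := Comp.ev f [9, 5]) _ (by decide) ?_ ?_) ?_⟩
  · exact a ▸ (cj_of hs (by decide +kernel)).trans b.symm
  · rw [b, cj_of hs (w := winv [37]) (by decide +kernel), ev_winv, ← a, ← map_inv]; rfl
  · exact a ▸ (cj_of hs (by decide +kernel)).trans b.symm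
  · exact b ▸ (cj_of hs (by decide +kernel)).trans a.symm
  · exact z ▸ (ceqOK_spec hE (by decide) (by decide) hc k3).2

open BN.TitsC in
theorem wit3a : ∃ (W : Subgroup (GL (Fin 2) (ZMod 3))) (R : Set (ZMod 3 × ZMod 3)), Rz W R ∧ Three R ∧ ¬ Big W := by
  obtain ⟨hE, -⟩ := Exact.fresh Tits.exact (by decide) (fun w _ => ev_mem Tits.mem w) h1 (m := 2) rfl h2 Tits.card h3
  have hf := slp_mem (evs_mem (ws := ws) (fun w _ => ev_mem Tits.mem w)) W 2
  exact wit3a_of (exact_sub_top hE hf) Tits.card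

/-- first generator -/
def ua : List ℕ := [69, 35, 56, 14, 15, 29, 69, 35, 56, 14, 15, 29, 5, 1, 90, 56, 3, 58, 3, 35, 5, 1, 90, 56, 3, 58, 3, 35]

/-- second generator -/
def ub : List ℕ := [69, 35, 56, 14, 15, 29, 5, 1, 90, 56, 3, 58, 3, 35, 30, 16, 13, 55, 36, 70, 5, 1, 90, 56, 3, 58, 3, 35]

/-- an element inducing a matrix of order eight -/
def ug : List ℕ := [68, 78, 35, 23, 69, 35, 56, 14, 15, 29, 36, 4, 57, 4, 55, 89, 2, 6, 30, 16, 13, 55, 36, 70]

theorem wit3b_of {G Ω : Type} [Group G] [MulAction G Ω] {D : Dom Ω 1755} {f : ℕ → G}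
    (hE : Exact D Tits.NU f Tits.CU ⊤) (hc : Nat.card G = 35942400) :
    ∃ (W : Subgroup (GL (Fin 2) (ZMod 3))) (R : Set (ZMod 3 × ZMod 3)), Rz W R ∧ Three R ∧ Big W := by
  have := Exact.finite_top hE
  have hs := (mdl_of_exact hE fun _ => trivial).sameB
  obtain ⟨t, -, a, b, z, r, k⟩ := tri_of hs (a := ua) (b := ub) (c := [31, 80, 1]) (g1 := [36, 4, 2, 36, 52, 19])
    (g2 := [39, 7, 2, 31, 3]) (g3 := [5, 1, 35, 1, 39]) (by decide +kernel)
    (hE.reps.ne_of_sameW (k := 11) (by decide) (by decide +kernel)) (by rw [hc]; decide)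
  refine ⟨_, _, r, k, big_of (mm_WG (g := Comp.ev f ug) _ (by decide) ?_ ?_)⟩
  · exact a ▸ (cj_of hs (by decide +kernel)).trans b.symm
  · rw [b, cj_of hs (w := lapp (lapp ua (winv ub)) [31, 80, 1]) (by decide +kernel), ev_lapp, ev_lapp, ev_winv, ← a, ← b, ← z,
      ← map_inv, ← map_mul, ← map_mul]; rfl

theorem wit3b : ∃ (W : Subgroup (GL (Fin 2) (ZMod 3))) (R : Set (ZMod 3 × ZMod 3)), Rz W R ∧ Three R ∧ Big W :=
  wit3b_of Tits.exactU Tits.cardU

end CF.RV
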